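import Cfsg.Agent.FGS4.Dihedral.SymFour
import Cfsg.Agent.Core.Cores
import Cfsg.Prelude.Def_CaseTheorems

/-! # The three dihedral configurations -/

set_option linter.style.haveILetI false
set_option linter.unusedSectionVars false

namespace Cfsg.Agent.FGS4.Dihedral

open Subgroup

variable {H : Type*} [Group H] [Finite H]

theorem mem_pair {a b g : H} (ha : a * a = 1) (hb : b * b = 1) (hab : Commute a b)
    (hg : g ∈ closure ({a, b} : Set H)) : g = 1 ∨ g = a ∨ g = b ∨ g = a * b := by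
  have ha' : a⁻¹ = a := inv_eq_of_mul_eq_one_right ha
  have hb' : b⁻¹ = b := inv_eq_of_mul_eq_one_right hb
  have hba : b * a = a * b := hab.eq.symm
  induction hg using Subgroup.closure_induction with
  | mem u hu =>
    rcases hu with rfl | rfl
    · exact Or.inr (Or.inl rfl)
    · exact Or.inr (Or.inr (Or.inl rfl))
  | one => exact Or.inl rfl
  | mul u v _ _ ihu ihv =>
    have h1 : a * (a * b) = b := by rw [← mul_assoc, ha, one_mul]
    have h2 : b * (a * b) = a := by rw [← mul_assoc, hba, mul_assoc, hb, mul_one]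
    have h3 : (a * b) * a = b := by rw [mul_assoc, hba, h1]
    have h4 : (a * b) * b = a := by rw [mul_assoc, hb, mul_one]
    have h5 : (a * b) * (a * b) = 1 := by rw [mul_assoc, h2, ha]
    rcases ihu with rfl | rfl | rfl | rfl <;> rcases ihv with rfl | rfl | rfl | rfl <;>
      simp only [one_mul, mul_one, ha, hb, hba, h1, h2, h3, h4, h5, eq_self, true_or, or_true]
  | inv u _ ih =>
    rcases ih with rfl | rfl | rfl | rfl <;> simp [mul_inv_rev, ha', hb', hba]

theorem pair_comm {a b : H} (hab : Commute a b) :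
    closure ({a, b} : Set H) ≤ centralizer ((closure ({a, b} : Set H) : Subgroup H) : Set H) := by
  rw [centralizer_closure, closure_le]
  rintro u (rfl | rfl) <;> rw [SetLike.mem_coe, mem_centralizer_iff] <;> rintro v (rfl | rfl)
  · rfl
  · exact hab.eq.symm
  · exact hab.eq
  · rfl

theorem pair_card {a b : H} (ha : a * a = 1) (hb : b * b = 1) (hab : Commute a b)
    (ha1 : a ≠ 1) (hb1 : b ≠ 1) (hne : a ≠ b) : Nat.card (closure ({a, b} : Set H)) = 4 := by
  haveI : Fact (Nat.Prime 2) := ⟨by norm_num⟩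
  have hn : zpowers a ≤ normalizer (zpowers b : Set H) := by
    refine le_trans ?_ (centralizer_le_normalizer _)
    rw [zpowers_le, mem_centralizer_iff]
    rintro v ⟨i, rfl⟩
    exact ((hab.zpow_right i).eq).symm
  have h := PLocal.card_sup_mul_card_inf hn
  have heq : zpowers a ⊔ zpowers b = closure ({a, b} : Set H) := by
    refine le_antisymm (sup_le (zpowers_le.2 (subset_closure (Or.inl rfl)))
      (zpowers_le.2 (subset_closure (Or.inr rfl)))) ((closure_le _).2 ?_)
    rintro u (rfl | rfl)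
    · exact mem_sup_left (mem_zpowers _)
    · exact mem_sup_right (mem_zpowers _)
  have hd : zpowers a ⊓ zpowers b = ⊥ := by
    rw [eq_bot_iff]
    intro g hg
    obtain ⟨hga, hgb⟩ := mem_inf.1 hg
    obtain ⟨i, rfl⟩ := mem_zpowers_iff.1 hga
    rw [mem_bot]
    rcases Int.even_or_odd i with ⟨j, rfl⟩ | ⟨j, rfl⟩
    · rw [← two_mul, zpow_mul, zpow_two, ha, one_zpow]
    · exfalso
      rw [zpow_add, zpow_mul, zpow_two, ha, one_zpow, one_mul, zpow_one] at hgb
      obtain ⟨k, hk⟩ := mem_zpowers_iff.1 hgb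
      rcases Int.even_or_odd k with ⟨l, rfl⟩ | ⟨l, rfl⟩
      · rw [← two_mul, zpow_mul, zpow_two, hb, one_zpow] at hk; exact ha1 hk.symm
      · rw [zpow_add, zpow_mul, zpow_two, hb, one_zpow, one_mul, zpow_one] at hk; exact hne hk.symm
  rw [heq, hd, Subgroup.card_bot, mul_one, Nat.card_zpowers, Nat.card_zpowers,
    orderOf_eq_prime (by rw [pow_two, ha]) ha1, orderOf_eq_prime (by rw [pow_two, hb]) hb1] at h
  exact h

theorem normal_of_gens {S A : Set H} (hS : closure S = ⊤)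
    (h : ∀ s ∈ S, ∀ t ∈ A, s * t * s⁻¹ ∈ closure A) : (closure A).Normal := by
  rw [← normalizer_eq_top_iff, eq_top_iff, ← hS, closure_le]
  intro s hs
  have hle : (closure A).map (MulAut.conj s).toMonoidHom ≤ closure A := by
    rw [MonoidHom.map_closure, closure_le]
    rintro _ ⟨t, ht, rfl⟩
    exact h s hs t ht
  have heq := eq_of_le_of_card_ge hle (card_map_of_injective (MulAut.conj s).injective).ge
  rw [SetLike.mem_coe, mem_normalizer_iff]
  intro g
  constructor
  · exact fun hg => hle ⟨g, hg, rfl⟩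
  · intro hg
    obtain ⟨t, ht, htg⟩ := heq.ge hg
    have h2 : t = g := (MulAut.conj s).injective htg
    exact h2 ▸ ht

/-- The odd normal subgroup and what is left. -/
theorem exists_core (Q : Subgroup H) (hQ : Q.Normal) (hQ2 : ∀ q ∈ Q, q * q = 1) {c u : H} (n e : ℕ)
    (hn : Odd n) (hcn : c ^ n ∈ Q) (hce : c ^ e ∈ centralizer (Q : Set H)) (hu : u * u = 1)
    (hcu : u * c * u = c⁻¹) (htop : Q ⊔ zpowers c ⊔ zpowers u = ⊤) :
    ∃ O : Subgroup H, O.Normal ∧ Odd (Nat.card O) ∧ c ^ (2 * e) ∈ O ∧ c ^ e ∈ Q ⊔ O := by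
  set d := c ^ (2 * e) with hd
  refine ⟨zpowers d, ?_, ?_, mem_zpowers d, ?_⟩
  · rw [← normalizer_eq_top_iff, eq_top_iff, ← htop]
    have hu' : u⁻¹ = u := inv_eq_of_mul_eq_one_right hu
    refine sup_le (sup_le ?_ ?_) ?_
    · refine le_trans (fun q hq => ?_) (centralizer_le_normalizer _)
      rw [mem_centralizer_iff]
      rintro v ⟨i, rfl⟩
      have h1 : Commute q (c ^ e) := mem_centralizer_iff.1 hce q hq
      have h2 : Commute q d := by rw [hd, mul_comm 2 e, pow_mul]; exact h1.pow_right 2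
      exact (h2.zpow_right i).eq.symm
    · refine le_trans (zpowers_le.2 ?_) (centralizer_le_normalizer _)
      rw [mem_centralizer_iff]
      rintro v ⟨i, rfl⟩
      exact (((Commute.refl c).pow_right (2 * e)).zpow_right i).eq.symm
    · rw [zpowers_le]
      have hdu : u * d * u⁻¹ = d⁻¹ := by
        have h1 : MulAut.conj u c = c⁻¹ := by rw [MulAut.conj_apply, hu', hcu]
        show MulAut.conj u d = d⁻¹
        rw [hd, map_pow, h1, inv_pow]
      have key : ∀ g, g ∈ zpowers d → u * g * u⁻¹ ∈ zpowers d := by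
        rintro g ⟨i, rfl⟩
        refine ⟨-i, ?_⟩
        show d ^ (-i) = MulAut.conj u (d ^ i)
        rw [map_zpow, MulAut.conj_apply, hdu, inv_zpow, zpow_neg]
      rw [mem_normalizer_iff]
      intro g
      refine ⟨key g, fun hg => ?_⟩
      have h2 := key _ hg
      rwa [hu', show u * (u * g * u) * u = g by rw [← mul_assoc, ← mul_assoc, hu, one_mul, mul_assoc, hu, mul_one]] at h2
  · rw [Nat.card_zpowers]
    refine Odd.of_dvd_nat hn (orderOf_dvd_of_pow_eq_one ?_)
    rw [hd, ← pow_mul, show 2 * e * n = n * 2 * e by ring, pow_mul, pow_mul, pow_two, hQ2 _ hcn, one_pow]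
  · obtain ⟨k, hk⟩ : ∃ k, n + 1 = 2 * k := by
      obtain ⟨j, rfl⟩ := hn; exact ⟨j + 1, by ring⟩
    have h : c ^ e = ((c ^ n) ^ e)⁻¹ * d ^ k := by
      rw [eq_inv_mul_iff_mul_eq, hd, ← pow_mul, ← pow_mul, ← pow_add]
      congr 1
      rw [show 2 * e * k = (2 * k) * e by ring, ← hk]; ring
    rw [h]
    exact mul_mem (mem_sup_left (inv_mem (pow_mem hcn e))) (mem_sup_right (pow_mem (mem_zpowers d) k))

theorem iso_quot (O : Subgroup H) [O.Normal] (hO : Odd (Nat.card O))
    (h : ∀ N : Subgroup (H ⧸ O), N.Normal → Odd (Nat.card N) → N = ⊥) {X : Type*} [Group X]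
    (e : (H ⧸ O) ≃* X) : Nonempty (H ⧸ Cfsg.oddCore H ≃* X) := by
  have h1 : O ≤ Cfsg.oddCore H := Core.le_pPrimeCore inferInstance (Nat.coprime_two_right.2 hO)
  have h2 : Cfsg.oddCore H ≤ O := by
    have hodd : Odd (Nat.card (Cfsg.oddCore H)) := Nat.coprime_two_right.1 (Core.card_pPrimeCore_coprime 2 H)
    have hN : ((Cfsg.oddCore H).map (QuotientGroup.mk' O)).Normal :=
      Normal.map inferInstance _ (QuotientGroup.mk'_surjective O)
    have h3 := h _ hN (Odd.of_dvd_nat hodd (card_map_dvd _ _))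
    rwa [Subgroup.map_eq_bot_iff, QuotientGroup.ker_mk'] at h3
  exact ⟨(QuotientGroup.quotientMulEquivOfEq (le_antisymm h2 h1)).trans e⟩

/-- `|P| = 4`. -/
theorem case_two {x0 x1 x2 : H} (h00 : x0 * x0 = 1) (h11 : x1 * x1 = 1) (h22 : x2 * x2 = 1)
    (hx1 : x1 ≠ 1) (h01 : Commute x0 x1) (h12 : Commute x1 x2) (h0Q : x0 ∉ closure ({x1} : Set H))
    (htop : closure ({x0, x1, x2} : Set H) = ⊤) (n : ℕ) (hn : Odd n)
    (hcn : (x0 * x2) ^ n ∈ closure ({x1} : Set H)) :
    Nonempty (H ⧸ Cfsg.oddCore H ≃* Multiplicative (ZMod 2) × Multiplicative (ZMod 2)) := by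
  haveI : Fact (Nat.Prime 2) := ⟨by norm_num⟩
  set Q := closure ({x1} : Set H) with hQdef
  have hQz : Q = zpowers x1 := (zpowers_eq_closure x1).symm
  have hcen : x1 ∈ Subgroup.center H := by
    rw [mem_center_iff]
    intro g
    have hle : (⊤ : Subgroup H) ≤ centralizer {x1} := by
      rw [← htop, closure_le]
      rintro u (rfl | rfl | rfl) <;> rw [SetLike.mem_coe, mem_centralizer_singleton_iff]
      · exact h01.eq
      · exact h12.eq.symm
    exact mem_centralizer_singleton_iff.1 (hle (mem_top g))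
  have hQc : Q ≤ Subgroup.center H := by rw [hQdef, closure_le]; simpa using hcen
  have hQn : Q.Normal := ⟨fun q hq g => by rw [mem_center_iff.1 (hQc hq) g, mul_inv_cancel_right]; exact hq⟩
  have hQ2 : ∀ q ∈ Q, q * q = 1 := by
    intro q hq
    rw [hQz] at hq
    obtain ⟨i, rfl⟩ := mem_zpowers_iff.1 hq
    rw [← zpow_add, ← two_mul, zpow_mul, zpow_two, h11, one_zpow]
  have hcu : x0 * (x0 * x2) * x0 = (x0 * x2)⁻¹ := by
    rw [mul_inv_rev, inv_eq_of_mul_eq_one_right h00, inv_eq_of_mul_eq_one_right h22, ← mul_assoc x0 x0 x2, h00, one_mul]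
  have hgen : Q ⊔ zpowers (x0 * x2) ⊔ zpowers x0 = ⊤ := by
    rw [eq_top_iff, ← htop, closure_le]
    rintro g (rfl | rfl | rfl)
    · exact mem_sup_right (mem_zpowers _)
    · exact mem_sup_left (mem_sup_left (subset_closure rfl))
    · have h := mul_mem (mem_sup_right (mem_zpowers x0) : x0 ∈ Q ⊔ zpowers (x0 * g) ⊔ zpowers x0)
        (mem_sup_left (mem_sup_right (mem_zpowers (x0 * g))))
      rwa [← mul_assoc, h00, one_mul] at h
  obtain ⟨O, hOn, hO, hd, hce⟩ := exists_core Q hQn hQ2 n 1 hn hcn (mem_centralizer_iff.2 fun q hq =>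
    ((mem_center_iff.1 (hQc hq) _)).symm) h00 hcu hgen
  rw [pow_one] at hce
  haveI := hOn
  set f := QuotientGroup.mk' O with hf
  have hsurj : Function.Surjective f := QuotientGroup.mk'_surjective O
  have hu2 : f x0 ^ 2 = 1 := by rw [← map_pow, pow_two, h00, map_one]
  have hv2 : f x1 ^ 2 = 1 := by rw [← map_pow, pow_two, h11, map_one]
  have hker : ∀ g : H, f g = 1 → g * g = 1 → g = 1 := by
    intro g hg hg2
    have hgO : g ∈ O := (QuotientGroup.eq_one_iff g).1 hg
    have h1 : orderOf g ∣ Nat.gcd 2 (Nat.card O) :=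
      Nat.dvd_gcd (orderOf_dvd_of_pow_eq_one (by rw [pow_two, hg2])) (orderOf_dvd_natCard O hgO)
    rw [Nat.Coprime.gcd_eq_one (Nat.coprime_two_left.2 hO)] at h1
    exact orderOf_eq_one_iff.1 (Nat.dvd_one.1 h1)
  have hv1 : f x1 ≠ 1 := fun h => hx1 (hker _ h h11)
  have hvc : f x1 ∈ Subgroup.center (H ⧸ O) := by
    rw [mem_center_iff]
    intro g
    obtain ⟨g, rfl⟩ := hsurj g
    rw [← map_mul, ← map_mul, mem_center_iff.1 hcen g]
  have huv : f x1 ∉ zpowers (f x0) := by
    intro hm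
    obtain ⟨i, hi⟩ := mem_zpowers_iff.1 hm
    rcases Int.even_or_odd i with ⟨j, rfl⟩ | ⟨j, rfl⟩
    · rw [← two_mul, zpow_mul, zpow_two, ← pow_two, hu2, one_zpow] at hi; exact hv1 hi.symm
    · rw [zpow_add, zpow_mul, zpow_two, ← pow_two, hu2, one_zpow, one_mul, zpow_one] at hi
      have h1 := hker (x0 * x1) (by rw [map_mul, hi, ← map_mul, h11, map_one]) (by
        rw [h01.symm.mul_mul_mul_comm, h00, h11, one_mul])
      refine h0Q ?_
      rw [mul_eq_one_iff_eq_inv.1 h1, inv_eq_of_mul_eq_one_right h11]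
      exact subset_closure rfl
  have htop2 : zpowers (f x0) ⊔ zpowers (f x1) = ⊤ := by
    rw [eq_top_iff, ← map_top_of_surjective f hsurj, ← hgen, Subgroup.map_sup, Subgroup.map_sup, hQz,
      MonoidHom.map_zpowers, MonoidHom.map_zpowers, MonoidHom.map_zpowers]
    refine sup_le (sup_le le_sup_right (zpowers_le.2 ?_)) le_sup_left
    have h1 : f (x0 * x2) ∈ (Q ⊔ O).map f := mem_map_of_mem f hce
    rw [Subgroup.map_sup, hQz, MonoidHom.map_zpowers, show O.map f = ⊥ by rw [Subgroup.map_eq_bot_iff, hf, QuotientGroup.ker_mk'],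
      sup_bot_eq] at h1
    exact mem_sup_right h1
  obtain ⟨e1⟩ := prod_two hvc hv2 huv htop2
  have hu1 : f x0 ≠ 1 := fun h => h0Q (by rw [hker _ h h00]; exact one_mem _)
  have e2 : zpowers (f x0) ≃* Multiplicative (ZMod 2) := mulEquivOfPrimeCardEq (p := 2)
    (by rw [Nat.card_zpowers, orderOf_eq_prime hu2 hu1]) (by rw [Nat.card_congr Multiplicative.toAdd, Nat.card_zmod])
  refine iso_quot O hO (fun N _ hN => ?_) (e1.trans (MulEquiv.prodCongr e2 (MulEquiv.refl _)))
  have h4 : Nat.card (H ⧸ O) = 2 ^ 2 := by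
    rw [Nat.card_congr (e1.trans (MulEquiv.prodCongr e2 (MulEquiv.refl _))).toEquiv, Nat.card_prod,
      Nat.card_congr Multiplicative.toAdd, Nat.card_zmod]
    rfl
  have hd := card_subgroup_dvd_card N
  rw [h4] at hd
  exact eq_bot_of_card_eq _ (Nat.eq_one_of_dvd_coprimes (Nat.Coprime.pow_right 2 (Nat.coprime_two_right.2 hN)) dvd_rfl hd)

/-- The passage to the quotient in the two larger cases. -/
theorem exists_s4_quot {Q T : Subgroup H} (hQ : Q.Normal) (hT : T.Normal) (hTQ : T ≤ Q)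
    (hT4 : Nat.card T = 4) (hab : Q ≤ centralizer (Q : Set H)) (hQ2 : ∀ q ∈ Q, q * q = 1) {c u : H}
    (n : ℕ) (hn : Odd n) (hcn : c ^ n ∈ Q) (hc3 : c ^ 3 ∈ centralizer (Q : Set H)) (hu : u * u = 1)
    (hcu : u * c * u = c⁻¹) (htop : Q ⊔ zpowers c ⊔ zpowers u = ⊤)
    (hcT : c ∉ centralizer (T : Set H)) (huT : u ∉ centralizer (T : Set H)) :
    ∃ O : Subgroup H, ∃ hOn : O.Normal, Odd (Nat.card O) ∧ Disjoint O Q ∧
      ∃ L : Subgroup (H ⧸ O), Nonempty (L ≃* Equiv.Perm (Fin 4)) ∧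
        L ⊓ centralizer ((T.map (QuotientGroup.mk' O)) : Set (H ⧸ O)) ≤ T.map (QuotientGroup.mk' O) ∧
        Nat.card (T.map (QuotientGroup.mk' O)) = 4 ∧
        T.map (QuotientGroup.mk' O) ≤ L ∧ L ⊔ Q.map (QuotientGroup.mk' O) = ⊤ := by
  obtain ⟨O, hOn, hO, hd, hce⟩ := exists_core Q hQ hQ2 n 3 hn hcn hc3 hu hcu htop
  haveI := hOn
  set f := QuotientGroup.mk' O with hf
  have hsurj : Function.Surjective f := QuotientGroup.mk'_surjective O
  have hdis : Disjoint O Q := by
    rw [disjoint_iff, eq_bot_iff]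
    intro g hg
    obtain ⟨hgO, hgQ⟩ := mem_inf.1 hg
    have h1 : orderOf g ∣ Nat.gcd 2 (Nat.card O) :=
      Nat.dvd_gcd (orderOf_dvd_of_pow_eq_one (by rw [pow_two, hQ2 g hgQ])) (orderOf_dvd_natCard O hgO)
    rw [Nat.Coprime.gcd_eq_one (Nat.coprime_two_left.2 hO)] at h1
    exact mem_bot.2 (orderOf_eq_one_iff.1 (Nat.dvd_one.1 h1))
  have hfQ : ∀ g ∈ Q, f g = 1 → g = 1 := fun g hg h =>
    mem_bot.1 (hdis.le_bot ⟨(QuotientGroup.eq_one_iff g).1 h, hg⟩)
  have hTcard : Nat.card (T.map f) = 4 := by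
    rw [← hT4]
    have hinj : Function.Injective (fun t : T => (⟨f t, mem_map_of_mem f t.2⟩ : T.map f)) := by
      intro a b h
      have h1 : f ((a : H) * (b : H)⁻¹) = 1 := by
        rw [map_mul, map_inv, mul_inv_eq_one]; exact congrArg Subtype.val h
      exact Subtype.ext (mul_inv_eq_one.1 (hfQ _ (mul_mem (hTQ a.2) (inv_mem (hTQ b.2))) h1))
    refine (Nat.card_congr (Equiv.ofBijective _ ⟨hinj, ?_⟩)).symm
    rintro ⟨_, t, ht, rfl⟩
    exact ⟨⟨t, ht⟩, rfl⟩
  -- elements acting trivially downstairs act trivially upstairs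
  have hlift : ∀ g : H, f g ∈ centralizer ((T.map f) : Set (H ⧸ O)) → g ∈ centralizer (T : Set H) := by
    intro g hg
    rw [mem_centralizer_iff]
    intro t ht
    have h1 := mem_centralizer_iff.1 hg (f t) (mem_map_of_mem f ht)
    have hm : t * g * t⁻¹ * g⁻¹ ∈ Q := by
      rw [show t * g * t⁻¹ * g⁻¹ = t * (g * t⁻¹ * g⁻¹) by group]
      exact mul_mem (hTQ ht) (hQ.conj_mem _ (inv_mem (hTQ ht)) g)
    have h2 := hfQ _ hm (by rw [map_mul, map_mul, map_mul, h1, map_inv, map_inv, mul_inv_cancel_right, mul_inv_cancel])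
    exact mul_inv_eq_iff_eq_mul.1 (mul_inv_eq_one.1 h2)
  have hc4 : f c ^ 6 = 1 := by rw [← map_pow]; exact (QuotientGroup.eq_one_iff _).2 hd
  have hc12 : (f c ^ 4) ^ 3 = 1 := by rw [← pow_mul, show 4 * 3 = 6 * 2 by norm_num, pow_mul, hc4, one_pow]
  have hcu' : f u * (f c ^ 4) * f u = (f c ^ 4)⁻¹ := by
    have hu' : (f u)⁻¹ = f u := inv_eq_of_mul_eq_one_right (by rw [← map_mul, hu, map_one])
    have h1 : MulAut.conj (f u) (f c) = (f c)⁻¹ := by
      rw [MulAut.conj_apply, hu', ← map_mul, ← map_mul, hcu, map_inv]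
    calc f u * (f c ^ 4) * f u = MulAut.conj (f u) (f c ^ 4) := by rw [MulAut.conj_apply, hu']
      _ = (f c ^ 4)⁻¹ := by rw [map_pow, h1, inv_pow]
  have hcT' : f c ^ 4 ∉ centralizer ((T.map f) : Set (H ⧸ O)) := by
    intro h
    rw [← map_pow] at h
    have h3 : c ^ 3 ∈ centralizer (T : Set H) := mem_centralizer_iff.2 fun t ht => mem_centralizer_iff.1 hc3 t (hTQ ht)
    have h4 := mul_mem (inv_mem h3) (hlift _ h)
    rw [show (c ^ 3)⁻¹ * c ^ 4 = c by group] at h4
    exact hcT h4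
  obtain ⟨e, hL24, hLC⟩ := exists_s4 (T.map f) (Normal.map hT f hsurj) hTcard (by
      rintro _ ⟨t, ht, rfl⟩
      rw [mem_centralizer_iff]
      rintro _ ⟨s, hs, rfl⟩
      rw [← map_mul, ← map_mul, mem_centralizer_iff.1 (hab (hTQ ht)) s (hTQ hs)])
    hc12 (by rw [← map_pow, pow_two, hu, map_one]) hcu' hcT' (fun h => huT (hlift _ h))
  refine ⟨O, hOn, hO, hdis, _, e, hLC, hTcard, le_sup_left.trans le_sup_left, ?_⟩
  rw [eq_top_iff, ← map_top_of_surjective f hsurj, ← htop, Subgroup.map_sup, Subgroup.map_sup,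
    MonoidHom.map_zpowers, MonoidHom.map_zpowers]
  refine sup_le (sup_le le_sup_right (zpowers_le.2 ?_)) (zpowers_le.2 (mem_sup_left (mem_sup_right (mem_zpowers _))))
  have h3 : f (c ^ 3) ∈ Q.map f := by
    have h1 : f (c ^ 3) ∈ (Q ⊔ O).map f := mem_map_of_mem f hce
    rwa [Subgroup.map_sup, show O.map f = ⊥ by rw [Subgroup.map_eq_bot_iff, hf, QuotientGroup.ker_mk'], sup_bot_eq] at h1
  rw [map_pow] at h3
  have h4 : f c = f c ^ 4 * (f c ^ 3)⁻¹ := by group
  refine (congrArg (· ∈ _) h4).mpr ?_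
  exact mul_mem (mem_sup_left (mem_sup_left (mem_sup_right (mem_zpowers _)))) (mem_sup_right (inv_mem h3))

/-- `|P| = 8`. -/
theorem case_three {x0 x1 x2 x3 : H} (h00 : x0 * x0 = 1) (h11 : x1 * x1 = 1) (h22 : x2 * x2 = 1)
    (h33 : x3 * x3 = 1) (hx1 : x1 ≠ 1) (hx2 : x2 ≠ 1) (hne : x1 ≠ x2)
    (h01 : Commute x0 x1) (h12 : Commute x1 x2) (h23 : Commute x2 x3)
    (h02 : x0 * x2 * x0⁻¹ = x1 * x2) (h31 : x3 * x1 * x3⁻¹ = x1 * x2)
    (htop : closure ({x0, x1, x2, x3} : Set H) = ⊤) (n : ℕ) (hn : Odd n)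
    (hcn : (x0 * x3) ^ n ∈ closure ({x1, x2} : Set H)) :
    Nonempty (H ⧸ Cfsg.oddCore H ≃* Equiv.Perm (Fin 4)) := by
  set Q := closure ({x1, x2} : Set H) with hQdef
  have m1 : x1 ∈ Q := subset_closure (by simp)
  have m2 : x2 ∈ Q := subset_closure (by simp)
  have hab : Q ≤ centralizer (Q : Set H) := pair_comm h12
  have hQn : Q.Normal := by
    refine normal_of_gens htop ?_
    rintro s (rfl | rfl | rfl | rfl) t (rfl | rfl)
    · rw [h01.eq, mul_inv_cancel_right]; exact m1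
    · rw [h02]; exact mul_mem m1 m2
    · simpa using m1
    · rw [h12.eq, mul_inv_cancel_right]; exact m2
    · rw [h12.symm.eq, mul_inv_cancel_right]; exact m1
    · simpa using m2
    · rw [h31]; exact mul_mem m1 m2
    · rw [h23.symm.eq, mul_inv_cancel_right]; exact m2
  have hQ2 : ∀ q ∈ Q, q * q = 1 := by
    intro q hq
    rcases mem_pair h11 h22 h12 hq with rfl | rfl | rfl | rfl
    · exact one_mul 1
    · exact h11
    · exact h22
    · rw [h12.symm.mul_mul_mul_comm, h11, h22, one_mul]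
  let cc : H ≃* H := MulAut.conj (x0 * x3)
  have hcc : ∀ g, cc g = x0 * (x3 * g * x3⁻¹) * x0⁻¹ := by intro g; simp [cc, mul_assoc]
  have hq1 : cc x1 = x2 := by
    rw [hcc, h31, show x0 * (x1 * x2) * x0⁻¹ = (x0 * x1 * x0⁻¹) * (x0 * x2 * x0⁻¹) by group, h02, h01.eq,
      mul_inv_cancel_right, ← mul_assoc, h11, one_mul]
  have hq2 : cc x2 = x1 * x2 := by rw [hcc, h23.symm.eq, mul_inv_cancel_right, h02]
  have hq3 : cc (x1 * x2) = x1 := by
    rw [map_mul, hq1, hq2, h12.eq, ← mul_assoc, h22, one_mul]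
  have hpow : ∀ g, (x0 * x3) ^ 3 * g * ((x0 * x3) ^ 3)⁻¹ = cc (cc (cc g)) := by
    intro g; simp [cc, pow_succ, mul_assoc]
  have hc3 : (x0 * x3) ^ 3 ∈ centralizer (Q : Set H) := by
    rw [hQdef, centralizer_closure, mem_centralizer_iff]
    rintro g (rfl | rfl) <;> refine (mul_inv_eq_iff_eq_mul.1 ?_).symm <;> rw [hpow]
    · rw [hq1, hq2, hq3]
    · rw [hq2, hq3, hq1]
  have hcu : x0 * (x0 * x3) * x0 = (x0 * x3)⁻¹ := by
    rw [mul_inv_rev, inv_eq_of_mul_eq_one_right h00, inv_eq_of_mul_eq_one_right h33, ← mul_assoc x0 x0 x3, h00, one_mul]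
  have hgen : Q ⊔ zpowers (x0 * x3) ⊔ zpowers x0 = ⊤ := by
    rw [eq_top_iff, ← htop, closure_le]
    rintro g (rfl | rfl | rfl | rfl)
    · exact mem_sup_right (mem_zpowers _)
    · exact mem_sup_left (mem_sup_left m1)
    · exact mem_sup_left (mem_sup_left m2)
    · have h := mul_mem (mem_sup_right (mem_zpowers x0) : x0 ∈ Q ⊔ zpowers (x0 * g) ⊔ zpowers x0)
        (mem_sup_left (mem_sup_right (mem_zpowers (x0 * g))))
      rwa [← mul_assoc, h00, one_mul] at h
  have hQ4 : Nat.card Q = 4 := pair_card h11 h22 h12 hx1 hx2 hne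
  have hcT : x0 * x3 ∉ centralizer (Q : Set H) := by
    intro h
    refine hne ?_
    rw [← hq1]
    show x1 = x0 * x3 * x1 * (x0 * x3)⁻¹
    rw [← mem_centralizer_iff.1 h x1 m1, mul_inv_cancel_right]
  have huT : x0 ∉ centralizer (Q : Set H) := by
    intro h
    refine hx1 ?_
    have h1 := h02
    rw [← mem_centralizer_iff.1 h x2 m2, mul_inv_cancel_right] at h1
    exact right_eq_mul.1 h1
  obtain ⟨O, hOn, hO, -, L, ⟨e⟩, hLC, hT4, hTL, hLQ⟩ :=
    exists_s4_quot hQn hQn le_rfl hQ4 hab hQ2 n hn hcn hc3 h00 hcu hgen hcT huT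
  haveI := hOn
  rw [sup_eq_left.2 hTL] at hLQ
  refine iso_quot O hO (fun N hN hNo => ?_) (Subgroup.topEquiv.symm.trans ((MulEquiv.subgroupCongr hLQ.symm).trans e))
  refine odd_normal_eq_bot hN (Normal.map hQn _ (QuotientGroup.mk'_surjective O)) hNo (k := 2) hT4 ?_
  intro g hg
  exact hLC ⟨by rw [hLQ]; exact mem_top g, hg⟩

/-- `|P| = 16`. -/
theorem case_four {x0 x1 x2 x3 x4 : H} (h00 : x0 * x0 = 1) (h11 : x1 * x1 = 1) (h22 : x2 * x2 = 1)
    (h33 : x3 * x3 = 1) (h44 : x4 * x4 = 1)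
    (h01 : Commute x0 x1) (h02 : Commute x0 x2) (h12 : Commute x1 x2) (h13 : Commute x1 x3)
    (h23 : Commute x2 x3) (h24 : Commute x2 x4) (h34 : Commute x3 x4)
    (h03 : x0 * x3 * x0⁻¹ = x1 * x2 * x3) (h41 : x4 * x1 * x4⁻¹ = x1 * x2 * x3)
    (hcard : 4 < Nat.card (closure ({x1, x2, x3} : Set H)))
    (htop : closure ({x0, x1, x2, x3, x4} : Set H) = ⊤) (n : ℕ) (hn : Odd n)
    (hcn : (x0 * x4) ^ n ∈ closure ({x1, x2, x3} : Set H)) :
    Nonempty (H ⧸ Cfsg.oddCore H ≃* Equiv.Perm (Fin 4) × Multiplicative (ZMod 2)) := by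
  set Q := closure ({x1, x2, x3} : Set H) with hQdef
  set T := closure ({x1 * x2, x2 * x3} : Set H) with hTdef
  have m1 : x1 ∈ Q := subset_closure (by simp)
  have m2 : x2 ∈ Q := subset_closure (by simp)
  have m3 : x3 ∈ Q := subset_closure (by simp)
  have ta : x1 * x2 ∈ T := subset_closure (by simp)
  have tb : x2 * x3 ∈ T := subset_closure (by simp)
  have hTQ : T ≤ Q := by
    rw [hTdef, closure_le]; rintro g (rfl | rfl)
    · exact mul_mem m1 m2
    · exact mul_mem m2 m3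
  have hab : Q ≤ centralizer (Q : Set H) := by
    rw [hQdef, centralizer_closure, closure_le]
    rintro g (rfl | rfl | rfl) <;> rw [SetLike.mem_coe, mem_centralizer_iff] <;> rintro v (rfl | rfl | rfl)
    all_goals first | rfl | exact h12.eq | exact h12.eq.symm | exact h13.eq | exact h13.eq.symm | exact h23.eq | exact h23.eq.symm
  have hQ2 : ∀ q ∈ Q, q * q = 1 := by
    intro q hq
    induction hq using Subgroup.closure_induction with
    | mem u hu => rcases hu with rfl | rfl | rfl <;> assumption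
    | one => exact one_mul 1
    | mul u v hu hv ihu ihv =>
      have hc : Commute v u := mem_centralizer_iff.1 (hab (show u ∈ Q from hu)) v hv
      rw [hc.mul_mul_mul_comm, ihu, ihv, one_mul]
    | inv u _ ih => rw [← mul_inv_rev, ih, inv_one]
  have hQn : Q.Normal := by
    refine normal_of_gens htop ?_
    rintro s (rfl | rfl | rfl | rfl | rfl) t (rfl | rfl | rfl)
    · rw [h01.eq, mul_inv_cancel_right]; exact m1
    · rw [h02.eq, mul_inv_cancel_right]; exact m2
    · rw [h03]; exact mul_mem (mul_mem m1 m2) m3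
    · simpa using m1
    · rw [h12.eq, mul_inv_cancel_right]; exact m2
    · rw [h13.eq, mul_inv_cancel_right]; exact m3
    · rw [h12.symm.eq, mul_inv_cancel_right]; exact m1
    · simpa using m2
    · rw [h23.eq, mul_inv_cancel_right]; exact m3
    · rw [h13.symm.eq, mul_inv_cancel_right]; exact m1
    · rw [h23.symm.eq, mul_inv_cancel_right]; exact m2
    · simpa using m3
    · rw [h41]; exact mul_mem (mul_mem m1 m2) m3
    · rw [h24.symm.eq, mul_inv_cancel_right]; exact m2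
    · rw [h34.symm.eq, mul_inv_cancel_right]; exact m3
  have t13 : x1 * x3 ∈ T := by
    have h := mul_mem ta tb
    rwa [show x1 * x2 * (x2 * x3) = x1 * (x2 * x2) * x3 by group, h22, mul_one] at h
  have hd : ∀ s a b : H, s * (a * b) * s⁻¹ = (s * a * s⁻¹) * (s * b * s⁻¹) := fun s a b => by group
  have hfix : ∀ {s a : H}, Commute s a → s * a * s⁻¹ = a := fun h => by rw [h.eq, mul_inv_cancel_right]
  have hTn : T.Normal := by
    refine normal_of_gens htop ?_
    rintro s (rfl | rfl | rfl | rfl | rfl) t (rfl | rfl)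
    · rw [hd, hfix h01, hfix h02]; exact ta
    · rw [hd, hfix h02, h03, ← mul_assoc, ← mul_assoc, h12.symm.eq, mul_assoc x1 x2 x2, h22, mul_one]; exact t13
    · rw [hfix ((Commute.refl _).mul_right h12)]; exact ta
    · rw [hfix (h12.mul_right h13)]; exact tb
    · rw [hfix (h12.symm.mul_right (Commute.refl _))]; exact ta
    · rw [hfix ((Commute.refl _).mul_right h23)]; exact tb
    · rw [hfix (h13.symm.mul_right h23.symm)]; exact ta
    · rw [hfix (h23.symm.mul_right (Commute.refl _))]; exact tb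
    · rw [hd, h41, hfix h24.symm, mul_assoc (x1 * x2) x3 x2, ← h23.eq, ← mul_assoc, mul_assoc x1 x2 x2, h22, mul_one]
      exact t13
    · rw [hd, hfix h24.symm, hfix h34.symm]; exact tb
  have hq13 : Q = T ⊔ zpowers x2 := by
    refine le_antisymm ?_ (sup_le hTQ (zpowers_le.2 m2))
    rw [hQdef, closure_le]
    rintro g (rfl | rfl | rfl)
    · have h := mul_mem (mem_sup_left ta : g * x2 ∈ T ⊔ zpowers x2) (mem_sup_right (mem_zpowers x2))
      rwa [mul_assoc, h22, mul_one] at h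
    · exact mem_sup_right (mem_zpowers _)
    · have h := mul_mem (mem_sup_right (mem_zpowers x2) : x2 ∈ T ⊔ zpowers x2) (mem_sup_left tb)
      rwa [← mul_assoc, h22, one_mul] at h
  have hcomm : Commute (x1 * x2) (x2 * x3) := mem_centralizer_iff.1 (hab (hTQ tb)) _ (hTQ ta)
  have hTle : Nat.card T ≤ 4 := by
    haveI : Fact (Nat.Prime 2) := ⟨by norm_num⟩
    have hsub : (T : Set H) ⊆ {1, x1 * x2, x2 * x3, x1 * x2 * (x2 * x3)} := by
      intro g hg
      rcases mem_pair (hQ2 _ (hTQ ta)) (hQ2 _ (hTQ tb)) hcomm hg with h | h | h | h <;> simp [h]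
    have h := Set.ncard_le_ncard hsub (Set.toFinite _)
    rw [← Nat.card_coe_set_eq] at h
    refine h.trans ?_
    refine (Set.ncard_insert_le _ _).trans ?_
    refine le_trans (Nat.add_le_add_right ((Set.ncard_insert_le _ _).trans
      (Nat.add_le_add_right ((Set.ncard_insert_le _ _).trans (by rw [Set.ncard_singleton])) 1)) 1) ?_
    omega
  have hx2T : x2 ∉ T := fun h => absurd (lt_of_lt_of_le hcard (by
    rw [hq13, sup_eq_left.2 (zpowers_le.2 h)]; exact hTle)) (lt_irrefl _)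
  have hz : x2 ∈ Subgroup.center H := by
    rw [mem_center_iff]
    intro g
    have hle : (⊤ : Subgroup H) ≤ centralizer {x2} := by
      rw [← htop, closure_le]
      rintro u (rfl | rfl | rfl | rfl | rfl) <;> rw [SetLike.mem_coe, mem_centralizer_singleton_iff]
      · exact h02.eq
      · exact h12.eq
      · exact h23.eq.symm
      · exact h24.eq.symm
    exact mem_centralizer_singleton_iff.1 (hle (mem_top g))
  have hx21 : x2 ≠ 1 := fun h => hx2T (h ▸ one_mem _)
  have hT4 : Nat.card T = 4 := by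
    have h := PLocal.card_sup_mul_card_inf (A := zpowers x2) (B := T) (by rw [normalizer_eq_top]; exact le_top)
    rw [sup_comm (zpowers x2) T, ← hq13] at h
    have h2 : Nat.card (zpowers x2) ≤ 2 := by
      rw [Nat.card_zpowers]; exact Nat.le_of_dvd (by norm_num) (orderOf_dvd_of_pow_eq_one (by rw [pow_two, h22]))
    have h3 : 1 ≤ Nat.card (zpowers x2 ⊓ T : Subgroup H) := Nat.card_pos
    have h4 : 3 ≤ Nat.card T := by nlinarith
    by_contra hne
    have h5 : Nat.card T = 3 := by omega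
    have hone : ∀ g ∈ T, g = 1 := fun g hg => by
      have h6 : g ^ 3 = 1 := by
        have := pow_card_eq_one' (x := (⟨g, hg⟩ : T))
        rw [h5] at this
        exact congrArg Subtype.val this
      rwa [pow_succ, pow_two, hQ2 g (hTQ hg), one_mul] at h6
    have h7 : T = ⊥ := eq_bot_iff.2 fun g hg => mem_bot.2 (hone g hg)
    rw [h7, Subgroup.card_bot] at h5
    omega
  let cc : H ≃* H := MulAut.conj (x0 * x4)
  have hcc : ∀ g, cc g = x0 * (x4 * g * x4⁻¹) * x0⁻¹ := by intro g; simp [cc, mul_assoc]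
  have hq1 : cc x1 = x3 := by
    rw [hcc, h41, hd, hd, hfix h01, hfix h02, h03, ← mul_assoc, hQ2 _ (mul_mem m1 m2), one_mul]
  have hq2 : cc x2 = x2 := by rw [hcc, hfix h24.symm, hfix h02]
  have hq3 : cc x3 = x1 * x2 * x3 := by rw [hcc, hfix h34.symm, h03]
  have hq4 : cc (x1 * x2 * x3) = x1 := by
    rw [map_mul, map_mul, hq1, hq2, hq3]
    rw [← h23.eq, show x2 * x3 * (x1 * x2 * x3) = x2 * (x3 * x1) * x2 * x3 by group, h13.symm.eq,
      show x2 * (x1 * x3) * x2 * x3 = (x2 * x1) * (x3 * x2) * x3 by group, h12.symm.eq, ← h23.eq,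
      show x1 * x2 * (x2 * x3) * x3 = x1 * (x2 * x2) * (x3 * x3) by group, h22, h33, mul_one, mul_one]
  have hpow : ∀ g, (x0 * x4) ^ 3 * g * ((x0 * x4) ^ 3)⁻¹ = cc (cc (cc g)) := by
    intro g; simp [cc, pow_succ, mul_assoc]
  have hc3 : (x0 * x4) ^ 3 ∈ centralizer (Q : Set H) := by
    rw [hQdef, centralizer_closure, mem_centralizer_iff]
    rintro g (rfl | rfl | rfl) <;> refine (mul_inv_eq_iff_eq_mul.1 ?_).symm <;> rw [hpow]
    · rw [hq1, hq3, hq4]
    · rw [hq2, hq2, hq2]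
    · rw [hq3, hq4, hq1]
  have hcu : x0 * (x0 * x4) * x0 = (x0 * x4)⁻¹ := by
    rw [mul_inv_rev, inv_eq_of_mul_eq_one_right h00, inv_eq_of_mul_eq_one_right h44, ← mul_assoc x0 x0 x4, h00, one_mul]
  have hgen : Q ⊔ zpowers (x0 * x4) ⊔ zpowers x0 = ⊤ := by
    rw [eq_top_iff, ← htop, closure_le]
    rintro g (rfl | rfl | rfl | rfl | rfl)
    · exact mem_sup_right (mem_zpowers _)
    · exact mem_sup_left (mem_sup_left m1)
    · exact mem_sup_left (mem_sup_left m2)
    · exact mem_sup_left (mem_sup_left m3)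
    · have h := mul_mem (mem_sup_right (mem_zpowers x0) : x0 ∈ Q ⊔ zpowers (x0 * g) ⊔ zpowers x0)
        (mem_sup_left (mem_sup_right (mem_zpowers (x0 * g))))
      rwa [← mul_assoc, h00, one_mul] at h
  have hne13 : x1 ≠ x3 := fun h => hx2T (by
    have h1 := ta
    rw [h, ← h23.eq] at h1
    have h2 : x2 * x3 * (x2 * x3) = 1 := hQ2 _ (hTQ tb)
    exfalso
    have h3 : Nat.card T ≤ 2 := by
      haveI : Fact (Nat.Prime 2) := ⟨by norm_num⟩
      have hle : T ≤ zpowers (x2 * x3) := by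
        rw [hTdef, closure_le]; rintro g (rfl | rfl)
        · rw [h, ← h23.eq]; exact mem_zpowers _
        · exact mem_zpowers _
      refine (card_le_of_le hle).trans ?_
      rw [Nat.card_zpowers]
      exact Nat.le_of_dvd (by norm_num) (orderOf_dvd_of_pow_eq_one (by rw [pow_two, h2]))
    omega)
  have hcT : x0 * x4 ∉ centralizer (T : Set H) := by
    intro h
    refine hne13 ?_
    have h1 : cc (x1 * x2) = x1 * x2 := by
      show x0 * x4 * (x1 * x2) * (x0 * x4)⁻¹ = x1 * x2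
      rw [← mem_centralizer_iff.1 h _ ta, mul_inv_cancel_right]
    rw [map_mul, hq1, hq2] at h1
    exact (mul_right_cancel h1).symm
  have huT : x0 ∉ centralizer (T : Set H) := by
    intro h
    have h1 : x0 * (x2 * x3) * x0⁻¹ = x2 * x3 := by
      rw [← mem_centralizer_iff.1 h _ tb, mul_inv_cancel_right]
    rw [hd, hfix h02, h03] at h1
    have h2 : x1 * x2 * x3 = x3 := mul_left_cancel h1
    have h3 : x1 * x2 = 1 := mul_eq_right.1 h2
    refine hx2T ?_
    have h4 : Nat.card T ≤ 2 := by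
      have hle : T ≤ zpowers (x2 * x3) := by
        rw [hTdef, closure_le]; rintro g (rfl | rfl)
        · rw [h3]; exact one_mem _
        · exact mem_zpowers _
      refine (card_le_of_le hle).trans ?_
      rw [Nat.card_zpowers]
      exact Nat.le_of_dvd (by norm_num) (orderOf_dvd_of_pow_eq_one (by rw [pow_two, hQ2 _ (hTQ tb)]))
    omega
  obtain ⟨O, hOn, hO, hdis, L, ⟨e⟩, hLC, hT4', hTL, hLQ⟩ :=
    exists_s4_quot hQn hTn hTQ hT4 hab hQ2 n hn hcn hc3 h00 hcu hgen hcT huT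
  haveI := hOn
  set f := QuotientGroup.mk' O with hf
  have hsurj : Function.Surjective f := QuotientGroup.mk'_surjective O
  have hz' : f x2 ∈ Subgroup.center (H ⧸ O) := by
    rw [mem_center_iff]
    intro g
    obtain ⟨g, rfl⟩ := hsurj g
    rw [← map_mul, ← map_mul, mem_center_iff.1 hz g]
  have hzL : f x2 ∉ L := by
    intro h
    have hzC : f x2 ∈ centralizer ((T.map f) : Set (H ⧸ O)) := mem_centralizer_iff.2 fun t _ => (mem_center_iff.1 hz' t)
    obtain ⟨t, ht, hte⟩ := hLC ⟨h, hzC⟩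
    refine hx2T ?_
    have h1 : t * x2⁻¹ ∈ O ⊓ Q := by
      refine mem_inf.2 ⟨(QuotientGroup.eq_one_iff _).1 ?_, mul_mem (hTQ ht) (inv_mem m2)⟩
      show f (t * x2⁻¹) = 1
      rw [map_mul, map_inv, hte, mul_inv_cancel]
    rw [hdis.eq_bot, mem_bot, mul_inv_eq_one] at h1
    exact h1 ▸ ht
  rw [hq13, Subgroup.map_sup, ← sup_assoc, sup_eq_left.2 hTL, MonoidHom.map_zpowers] at hLQ
  obtain ⟨e1⟩ := prod_two hz' (by rw [← map_pow, pow_two, h22, map_one]) hzL hLQ
  refine iso_quot O hO (fun N hN hNo => ?_) (e1.trans (MulEquiv.prodCongr e (MulEquiv.refl _)))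
  haveI := Normal.map hQn f hsurj
  refine odd_normal_eq_bot hN (Normal.map hQn f hsurj) hNo (k := 3) ?_ ?_
  · have hQf : Q.map f = zpowers (f x2) ⊔ T.map f := by rw [hq13, Subgroup.map_sup, MonoidHom.map_zpowers, sup_comm]
    have h := PLocal.card_sup_mul_card_inf (A := zpowers (f x2)) (B := T.map f) (by
      haveI := Normal.map hTn f hsurj
      rw [normalizer_eq_top]; exact le_top)
    haveI : Fact (Nat.Prime 2) := ⟨by norm_num⟩
    have hd : zpowers (f x2) ⊓ T.map f = ⊥ := by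
      rw [eq_bot_iff]
      intro g hg
      obtain ⟨hga, hgb⟩ := mem_inf.1 hg
      obtain ⟨i, rfl⟩ := mem_zpowers_iff.1 hga
      have hz2 : f x2 * f x2 = 1 := by rw [← map_mul, h22, map_one]
      rw [mem_bot]
      rcases Int.even_or_odd i with ⟨j, rfl⟩ | ⟨j, rfl⟩
      · rw [← two_mul, zpow_mul, zpow_two, hz2, one_zpow]
      · refine absurd ?_ hzL
        rw [zpow_add, zpow_mul, zpow_two, hz2, one_zpow, one_mul, zpow_one] at hgb
        exact hTL hgb
    rw [hd, Subgroup.card_bot, mul_one, Nat.card_zpowers,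
      orderOf_eq_prime (by rw [← map_pow, pow_two, h22, map_one]) (fun h => hzL (by rw [h]; exact one_mem _)), hT4'] at h
    rw [hQf, h]
    norm_num
  · intro g hg
    have hgT : g ∈ centralizer ((T.map f) : Set (H ⧸ O)) :=
      mem_centralizer_iff.2 fun t ht => mem_centralizer_iff.1 hg t (map_mono hTQ ht)
    have hmem : g ∈ ((L ⊔ zpowers (f x2) : Subgroup (H ⧸ O)) : Set (H ⧸ O)) := by rw [hLQ]; trivial
    rw [coe_mul_of_right_le_normalizer_left _ _ (by
      refine le_trans ?_ (centralizer_le_normalizer _)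
      rw [zpowers_le, mem_centralizer_iff]
      exact fun l _ => (mem_center_iff.1 hz' l))] at hmem
    obtain ⟨l, hl, w, hw, rfl⟩ := Set.mem_mul.1 hmem
    have hwc : w ∈ centralizer ((T.map f) : Set (H ⧸ O)) :=
      (zpowers_le.2 (mem_centralizer_iff.2 fun t _ => (mem_center_iff.1 hz' t))) hw
    have hlc := mul_mem hgT (inv_mem hwc)
    rw [mul_inv_cancel_right] at hlc
    exact mul_mem (map_mono hTQ (hLC ⟨hl, hlc⟩))
      ((zpowers_le.2 (mem_map_of_mem f m2)) hw)

end Cfsg.Agent.FGS4.Dihedral
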