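import Cfsg.Agent.FGS4.Dihedral.Setup
import Cfsg.Agent.FGS4.Dihedral.Cases

/-! # The possible orders and quotients -/

set_option linter.style.haveILetI false
set_option linter.unusedSectionVars false

namespace Cfsg.Agent.FGS4.Dihedral

open Subgroup Cfsg.Agent.FGS4.ShiftChain
open scoped commutatorElement

variable {G : Type*} [Group G] [Finite G]

theorem conj_comm_left {a b : G} : a * b * a⁻¹ = ⁅a, b⁆ * b := by
  rw [commutatorElement_def]; group

theorem conj_comm_right {a b : G} (ha : a * a = 1) (hb : b * b = 1) : b * a * b⁻¹ = a * ⁅a, b⁆ := by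
  rw [commutatorElement_def, inv_eq_of_mul_eq_one_right ha, inv_eq_of_mul_eq_one_right hb, ← mul_assoc, ← mul_assoc,
    ← mul_assoc, ha, one_mul]

theorem le_normalizer_of_gens {S A : Set G} (h : ∀ a ∈ S, ∀ t ∈ A, a * t * a⁻¹ ∈ closure A) :
    closure S ≤ normalizer ((closure A : Subgroup G) : Set G) := by
  rw [closure_le]
  intro a ha
  have hle : (closure A).map (MulAut.conj a).toMonoidHom ≤ closure A := by
    rw [MonoidHom.map_closure, closure_le]
    rintro _ ⟨t, ht, rfl⟩
    exact h a ha t ht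
  have heq := eq_of_le_of_card_ge hle (card_map_of_injective (MulAut.conj a).injective).ge
  rw [SetLike.mem_coe, mem_normalizer_iff]
  intro g
  constructor
  · exact fun hg => hle ⟨g, hg, rfl⟩
  · intro hg
    obtain ⟨t, ht, htg⟩ := heq.ge hg
    have h2 : t = g := (MulAut.conj a).injective htg
    exact h2 ▸ ht

variable {s : MulAut G} {x : G} {m : ℕ}

theorem pt_sq (hm : 1 ≤ m) (hcard : ∀ i l, l ≤ m → Nat.card (J s x i l) = 2 ^ l) (i : ℤ) :
    pt s x i * pt s x i = 1 := by
  have h := hcard i 1 hm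
  rw [J_one, Nat.card_zpowers, pow_one] at h
  rw [← pow_two, ← h, pow_orderOf_eq_one]

theorem pt_ne_one (hm : 1 ≤ m) (hcard : ∀ i l, l ≤ m → Nat.card (J s x i l) = 2 ^ l) (i : ℤ) :
    pt s x i ≠ 1 := by
  intro h1
  have h := hcard i 1 hm
  rw [J_one, Nat.card_zpowers, h1, orderOf_one] at h
  norm_num at h

theorem mem_one {g : G} {i : ℤ} (hm : 1 ≤ m) (hcard : ∀ i l, l ≤ m → Nat.card (J s x i l) = 2 ^ l)
    (hg : g ∈ J s x i 1) : g = 1 ∨ g = pt s x i := by
  rw [J_one] at hg
  obtain ⟨k, rfl⟩ := mem_zpowers_iff.1 hg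
  rcases Int.even_or_odd k with ⟨j, rfl⟩ | ⟨j, rfl⟩
  · exact Or.inl (by rw [← two_mul, zpow_mul, zpow_two, pt_sq hm hcard, one_zpow])
  · exact Or.inr (by rw [zpow_add, zpow_mul, zpow_two, pt_sq hm hcard, one_zpow, one_mul, zpow_one])

theorem inf_J {l : ℕ} {i : ℤ} (hcard : ∀ i l, l ≤ m → Nat.card (J s x i l) = 2 ^ l) (hl : l + 2 ≤ m) :
    J s x i (l + 1) ⊓ J s x (i + 1) (l + 1) = J s x (i + 1) l := by
  refine (eq_of_le_of_card_ge (le_inf (J_mono (by omega) (by omega)) (J_mono le_rfl (by omega))) ?_).symm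
  obtain ⟨j, hj, hjc⟩ := (Nat.dvd_prime_pow Nat.prime_two).1 (hcard i (l + 1) (by omega) ▸
    card_dvd_of_le (inf_le_left (a := J s x i (l + 1)) (b := J s x (i + 1) (l + 1))))
  rw [hjc, hcard (i + 1) l (by omega)]
  refine Nat.pow_le_pow_right (by norm_num) ?_
  by_contra hlt
  have h4 := eq_of_le_of_card_ge (inf_le_left (a := J s x i (l + 1)) (b := J s x (i + 1) (l + 1))) (by
    rw [hjc, hcard i (l + 1) (by omega)]; exact Nat.pow_le_pow_right (by norm_num) (by omega))
  have h5 : J s x i (l + 2) ≤ J s x (i + 1) (l + 1) := by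
    rw [← J_sup (s := s) (x := x) (i := i) (i' := i + 1) (l := l + 1) (l' := l + 1) (L := l + 2) (by omega)
      (by omega) (by omega) (by omega)]
    exact sup_le (inf_eq_left.1 h4) le_rfl
  have h6 := card_le_of_le h5
  rw [hcard i (l + 2) hl, hcard (i + 1) (l + 1) (by omega)] at h6
  have := (Nat.pow_le_pow_iff_right (by norm_num : 1 < 2)).1 h6
  omega

theorem comm_mem {c i : ℤ} {l : ℕ} (h : ∀ j, i ≤ j → j < i + l → Commute (pt s x c) (pt s x j)) {u : G}
    (hu : u ∈ J s x i l) : Commute (pt s x c) u := by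
  induction hu using Subgroup.closure_induction with
  | mem u hu => obtain ⟨j, ⟨h1, h2⟩, rfl⟩ := hu; exact h j h1 h2
  | one => exact Commute.one_right _
  | mul u v _ _ ihu ihv => exact ihu.mul_right ihv
  | inv u _ ih => exact ih.inv_right

theorem shift_comm (k i j : ℤ) :
    (s ^ k : MulAut G) ⁅pt s x i, pt s x j⁆ = ⁅pt s x (i + k), pt s x (j + k)⁆ := by
  rw [← pt_shift k i, ← pt_shift k j]
  exact map_commutatorElement (s ^ k : MulAut G).toMonoidHom _ _

/-- The orbit length is not six. -/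
theorem ne_six {H P Q : Subgroup G} {y : G} {n : ℕ} (hc : Config H P Q y s x 6 n) {r a b : ℕ}
    (hC : ∀ a b : ℤ, b ≤ a + r → a ≤ b + r → Commute (pt s x a) (pt s x b))
    (hnc : ¬ Commute (pt s x 0) (pt s x ((r : ℤ) + 1))) (hr : r = 3) (ha : a = 2) (hb : b = 2)
    (hwa : ⁅pt s x 0, pt s x ((r : ℤ) + 1)⁆ ∈ J s x a (r + 1 - a))
    (hwb : ⁅pt s x 0, pt s x ((r : ℤ) + 1)⁆ ∈ J s x 1 b) : False := by
  subst hr ha hb
  have hcard := hc.card
  have sq := fun i => pt_sq (s := s) (x := x) (m := 6) (by norm_num) hcard i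
  have hC' : ∀ i j : ℤ, j ≤ i + 3 → i ≤ j + 3 → Commute (pt s x i) (pt s x j) := fun i j h1 h2 =>
    hC i j (by exact_mod_cast h1) (by exact_mod_cast h2)
  norm_num at hnc hwa hwb
  have hw : ⁅pt s x 0, pt s x 4⁆ = pt s x 2 := by
    have h1 : ⁅pt s x 0, pt s x 4⁆ ∈ J s x 1 2 ⊓ J s x (1 + 1) 2 := mem_inf.2 ⟨hwb, by norm_num; exact hwa⟩
    rw [inf_J (l := 1) hcard (by omega)] at h1
    norm_num at h1
    rcases mem_one (by norm_num) hcard h1 with h | h
    · exact absurd (commutatorElement_eq_one_iff_commute.1 h) hnc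
    · exact h
  have hw4 : ∀ i : ℤ, ⁅pt s x i, pt s x (i + 4)⁆ = pt s x (i + 2) := by
    intro i
    have h := shift_comm (s := s) (x := x) i 0 4
    rw [hw, pt_shift, zero_add, add_comm 4 i, add_comm 2 i] at h
    exact h.symm
  set w := ⁅pt s x 0, pt s x 5⁆ with hwd
  have hN0 := normal_interval (s := s) (x := x) (m := 6) (l := 5) (i := 0) (i' := 0) Nat.prime_two hcard le_rfl le_rfl (by omega)
  have hN1 := normal_interval (s := s) (x := x) (m := 6) (l := 5) (i := 0) (i' := 1) Nat.prime_two hcard le_rfl (by omega) (by omega)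
  have h06 : pt s x 0 ∈ J s x 0 6 := pt_mem le_rfl (by norm_num)
  have h56 : pt s x 5 ∈ J s x 0 6 := pt_mem (by norm_num) (by norm_num)
  have hw14 : w ∈ J s x 1 4 := by
    have h1 : w ∈ J s x 0 5 := by
      have h2 := (mem_normalizer_iff.1 (hN0 h56) _).1 (inv_mem (pt_mem (s := s) (x := x) (i := 0) (j := 0) (l := 5) le_rfl (by norm_num)))
      have h3 := mul_mem (pt_mem (s := s) (x := x) (i := 0) (j := 0) (l := 5) le_rfl (by norm_num)) h2
      rwa [← mul_assoc, ← mul_assoc] at h3
    have h4 : w ∈ J s x 1 5 := by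
      have h2 := (mem_normalizer_iff.1 (hN1 h06) _).1 (pt_mem (s := s) (x := x) (i := 1) (j := 5) (l := 5) (by norm_num) (by norm_num))
      exact mul_mem h2 (inv_mem (pt_mem (by norm_num) (by norm_num)))
    have h5 : w ∈ J s x 0 (4 + 1) ⊓ J s x (0 + 1) (4 + 1) := mem_inf.2 ⟨h1, h4⟩
    rw [inf_J hcard (by omega)] at h5
    exact h5
  have hwinv : w⁻¹ = w := by
    refine inv_eq_of_mul_eq_one_right ?_
    have : ∀ u ∈ J s x 1 4, u * u = 1 := by
      intro u hu
      induction hu using Subgroup.closure_induction with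
      | mem u hu => obtain ⟨j, -, rfl⟩ := hu; exact sq j
      | one => exact one_mul 1
      | mul u v hu hv ihu ihv =>
        have hc2 : Commute v u := by
          induction hv using Subgroup.closure_induction with
          | mem v hv =>
            obtain ⟨j, ⟨h1, h2⟩, rfl⟩ := hv
            exact comm_mem (fun i h3 h4 => hC' _ _ (by push_cast at h2 h4; omega) (by push_cast at h2 h4; omega)) hu
          | one => exact Commute.one_left _
          | mul a b _ _ iha ihb =>
            have ha' : ∀ c ∈ J s x 1 4, ∀ d ∈ J s x 1 4, Commute c d := by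
              intro c hc d hd
              have hle : J s x 1 4 ≤ centralizer (J s x 1 4 : Set G) := by
                rw [J, centralizer_closure, closure_le]
                rintro _ ⟨i, ⟨hi1, hi2⟩, rfl⟩
                rw [SetLike.mem_coe, mem_centralizer_iff]
                rintro _ ⟨k, ⟨hk1, hk2⟩, rfl⟩
                exact (hC' k i (by push_cast at hi2 hk2; omega) (by push_cast at hi2 hk2; omega)).eq
              exact mem_centralizer_iff.1 (hle hd) c hc
            exact ha' _ (mul_mem (by assumption) (by assumption)) _ hu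
          | inv a _ iha =>
            have hle : J s x 1 4 ≤ centralizer (J s x 1 4 : Set G) := by
              rw [J, centralizer_closure, closure_le]
              rintro _ ⟨i, ⟨hi1, hi2⟩, rfl⟩
              rw [SetLike.mem_coe, mem_centralizer_iff]
              rintro _ ⟨k, ⟨hk1, hk2⟩, rfl⟩
              exact (hC' k i (by push_cast at hi2 hk2; omega) (by push_cast at hi2 hk2; omega)).eq
            exact mem_centralizer_iff.1 (hle hu) _ (inv_mem (by assumption))
        rw [hc2.mul_mul_mul_comm, ihu, ihv, one_mul]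
      | inv u _ ih => rw [← mul_inv_rev, ih, inv_one]
    exact this w hw14
  have hw0 : Commute (pt s x 0) w := by
    have h1 : pt s x 0 * w * (pt s x 0)⁻¹ = w := by
      conv_rhs => rw [← hwinv]
      rw [hwd, commutatorElement_def, inv_eq_of_mul_eq_one_right (sq 0), inv_eq_of_mul_eq_one_right (sq 5),
        mul_inv_rev, mul_inv_rev, mul_inv_rev, inv_eq_of_mul_eq_one_right (sq 0), inv_eq_of_mul_eq_one_right (sq 5)]
      simp only [mul_assoc, sq, mul_one]
      rw [← mul_assoc (pt s x 0) (pt s x 0), sq, one_mul]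
    exact mul_inv_eq_iff_eq_mul.1 h1
  have hw5 : Commute (pt s x 5) w := by
    have h1 : pt s x 5 * w * (pt s x 5)⁻¹ = w := by
      conv_rhs => rw [← hwinv]
      rw [hwd, commutatorElement_def, inv_eq_of_mul_eq_one_right (sq 0), inv_eq_of_mul_eq_one_right (sq 5),
        mul_inv_rev, mul_inv_rev, mul_inv_rev, inv_eq_of_mul_eq_one_right (sq 0), inv_eq_of_mul_eq_one_right (sq 5)]
      simp only [mul_assoc, sq, mul_one]
    exact mul_inv_eq_iff_eq_mul.1 h1
  have hw22 : w ∈ J s x 2 2 := by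
    have hsplit : ∀ (c e : ℤ), (∀ j, 1 ≤ j → j < 5 → j ≠ e → Commute (pt s x c) (pt s x j)) →
        ∀ (i i' : ℤ) (l l' : ℕ), J s x i l ⊔ J s x i' l' = J s x 1 4 → (∀ j, i ≤ j → j < i + l → 1 ≤ j ∧ j < 5 ∧ j ≠ e) →
        i' = e → l' = 1 → ¬ Commute (pt s x c) (pt s x e) → Commute (pt s x c) w → w ∈ J s x i l := by
      intro c e hce i i' l l' hsup hj hi' hl' hnce hcw
      subst hi' hl'
      have hnorm : J s x i' 1 ≤ normalizer (J s x i l : Set G) := by
        refine le_trans ?_ (centralizer_le_normalizer _)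
        rw [J_one, zpowers_le, mem_centralizer_iff]
        intro u hu
        refine ((comm_mem (c := i') ?_ hu).eq).symm
        intro j h1 h2
        obtain ⟨h3, h4, -⟩ := hj j h1 h2
        have h5 : pt s x i' ∈ J s x 1 4 := by rw [← hsup]; exact mem_sup_right (pt_mem le_rfl (by norm_num))
        refine (comm_mem (c := j) ?_ h5).symm
        intro k hk1 hk2
        exact hC' _ _ (by push_cast at hk2; omega) (by push_cast at hk2; omega)
      have hmem : w ∈ ((J s x i l ⊔ J s x i' 1 : Subgroup G) : Set G) := by rw [hsup]; exact hw14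
      rw [coe_mul_of_right_le_normalizer_left _ _ hnorm] at hmem
      obtain ⟨v, hv, u, hu, huv⟩ := Set.mem_mul.1 hmem
      have hcv : Commute (pt s x c) v := comm_mem (fun j h1 h2 => by
        obtain ⟨h3, h4, h5⟩ := hj j h1 h2; exact hce j h3 h4 h5) hv
      rcases mem_one (by norm_num) hcard hu with rfl | rfl
      · rw [mul_one] at huv; exact huv ▸ hv
      · refine absurd ?_ hnce
        have := hcv.inv_right.mul_right hcw
        rwa [← huv, inv_mul_cancel_left] at this
    have h13 : w ∈ J s x 1 3 := hsplit 0 4 (fun j h1 h2 h3 => hC' _ _ (by omega) (by omega)) 1 4 3 1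
      (J_sup (L := 4) (by omega) (by omega) (by omega) (by omega))
      (fun j h1 h2 => by push_cast at h2; omega) rfl rfl (by exact_mod_cast hnc) hw0
    have h23 : w ∈ J s x 2 3 := hsplit 5 1 (fun j h1 h2 h3 => hC' _ _ (by omega) (by omega)) 2 1 3 1
      (by rw [sup_comm]; exact J_sup (L := 4) (by omega) (by omega) (by omega) (by omega))
      (fun j h1 h2 => by push_cast at h2; omega) rfl rfl (by
        intro h
        refine hnc ?_
        have := commute_of_shift (k := -1) h.symm
        norm_num at this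
        exact this) hw5
    have h5 : w ∈ J s x 1 (2 + 1) ⊓ J s x (1 + 1) (2 + 1) := mem_inf.2 ⟨h13, by norm_num; exact h23⟩
    rw [inf_J hcard (by omega)] at h5
    norm_num at h5
    exact h5
  have hH : H = closure (pt s x '' {j : ℤ | 0 ≤ j ∧ j < 0 + ((6 + 1 : ℕ) : ℤ)}) := hc.hH
  have hnormal : ∀ e : ℤ, e = 1 ∨ e = 2 → H ≤ normalizer (J s x e 4 : Set G) := by
    intro e he
    rw [hH]
    refine le_normalizer_of_gens ?_
    rintro _ ⟨i, ⟨hi0, hi⟩, rfl⟩ _ ⟨j, ⟨hj0, hj⟩, rfl⟩
    show _ ∈ J s x e 4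
    push_cast at hi hj
    have hjm : pt s x j ∈ J s x e 4 := pt_mem hj0 (by push_cast; omega)
    by_cases hd : j ≤ i + 3 ∧ i ≤ j + 3
    · rw [(hC' i j hd.1 hd.2).eq, mul_inv_cancel_right]; exact hjm
    by_cases h4 : j = i + 4
    · subst h4
      rw [conj_comm_left, hw4]
      exact mul_mem (pt_mem (by omega) (by push_cast; omega)) hjm
    by_cases h4' : i = j + 4
    · subst h4'
      rw [conj_comm_right (sq _) (sq _), hw4]
      exact mul_mem hjm (pt_mem (by omega) (by push_cast; omega))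
    rcases le_or_gt j i with hji | hji
    · obtain ⟨rfl, rfl, rfl⟩ : i = 6 ∧ j = 1 ∧ e = 1 := by omega
      rw [conj_comm_right (sq _) (sq _)]
      refine mul_mem hjm ?_
      have h := mem_map_of_mem (s ^ (1 : ℤ) : MulAut G).toMonoidHom hw22
      rw [map_J] at h
      have h' : (s ^ (1 : ℤ) : MulAut G) w ∈ J s x (2 + 1) 2 := h
      rw [hwd, shift_comm] at h'
      exact J_mono (s := s) (x := x) (i := 1) (l := 4) (i' := 2 + 1) (l' := 2) (by norm_num) (by norm_num) h'
    · obtain ⟨rfl, rfl, rfl⟩ : i = 0 ∧ j = 5 ∧ e = 2 := by omega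
      rw [conj_comm_left]
      exact mul_mem (J_mono le_rfl (by norm_num) hw22) hjm
  have hP : ∀ e : ℤ, e = 1 ∨ e = 2 → J s x e 4 ≤ P := fun e he => hc.hP ▸ J_mono (by omega) (by push_cast; omega)
  obtain ⟨h2a, h2b⟩ := hc.step _ (hP 2 (Or.inr rfl)) (hnormal 2 (Or.inr rfl))
  obtain ⟨h1a, -⟩ := hc.step _ (hP 1 (Or.inl rfl)) (hnormal 1 (Or.inl rfl))
  have e21 : (J s x 2 4).map (MulAut.conj y).toMonoidHom = J s x 1 4 := by
    apply map_injective (f := s.toMonoidHom) s.injective
    rw [h2a, map_J_one]; norm_num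
  have e10 : (J s x 1 4).map (MulAut.conj y).toMonoidHom = J s x 0 4 := by
    apply map_injective (f := s.toMonoidHom) s.injective
    rw [h1a, map_J_one]; norm_num
  rw [e21, e10] at h2b
  have h6 : J s x 0 6 ≤ J s x 0 4 := by
    rw [← J_sup (s := s) (x := x) (i := 0) (i' := 2) (l := 4) (l' := 4) (L := 6) (by omega) (by omega) (by omega) (by omega)]
    exact sup_le le_rfl h2b.ge
  have h7 := card_le_of_le h6
  rw [hcard 0 6 le_rfl, hcard 0 4 (by omega)] at h7
  norm_num at h7

/-- Passing a generating set to the subgroup. -/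
theorem closure_lift_eq_top {H : Subgroup G} {S : Set H} (h : H ≤ closure (H.subtype '' S)) : closure S = ⊤ := by
  apply map_injective (f := H.subtype) H.subtype_injective
  rw [MonoidHom.map_closure, ← MonoidHom.range_eq_map, Subgroup.range_subtype]
  refine le_antisymm ?_ h
  rw [closure_le]
  rintro _ ⟨a, -, rfl⟩
  exact a.2

theorem main {H P : Subgroup G} {y : G} {n : ℕ} (hc : Config H P ((Cfsg.pCore 2 H).map H.subtype) y s x m n) :
    (Nat.card P = 4 ∨ Nat.card P = 8 ∨ Nat.card P = 16) ∧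
    (Nonempty (↥H ⧸ Cfsg.oddCore ↥H ≃* Multiplicative (ZMod 2) × Multiplicative (ZMod 2)) ∨
     Nonempty (↥H ⧸ Cfsg.oddCore ↥H ≃* Equiv.Perm (Fin 4)) ∨
     Nonempty (↥H ⧸ Cfsg.oddCore ↥H ≃* Equiv.Perm (Fin 4) × Multiplicative (ZMod 2))) := by
  have hm1 : 1 ≤ m := le_trans (by norm_num) hc.two_le
  have hcard := hc.card
  have hPc : Nat.card P = 2 ^ m := by rw [hc.hP, hcard 0 m le_rfl]
  have sq := fun i => pt_sq (s := s) (x := x) hm1 hcard i
  have ne1 := fun i => pt_ne_one (s := s) (x := x) hm1 hcard i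
  have hmem : ∀ i : ℤ, 0 ≤ i → i ≤ m → pt s x i ∈ H := fun i h1 h2 =>
    hc.hH ▸ pt_mem h1 (by push_cast; omega)
  let ξ : ∀ i : ℤ, 0 ≤ i → i ≤ m → H := fun i h1 h2 => ⟨pt s x i, hmem i h1 h2⟩
  have hQnot : ∀ i : ℤ, i = 0 ∨ i = m → pt s x i ∉ J s x 1 (m - 1) := by
    intro i hi h
    have hle : J s x 0 m ≤ J s x 1 (m - 1) ∨ J s x 1 m ≤ J s x 1 (m - 1) := by
      rcases hi with rfl | rfl
      · left
        rw [← J_sup (s := s) (x := x) (i := 0) (i' := 1) (l := 1) (l' := m - 1) (L := m) (by omega) (by omega) (by omega) (by omega)]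
        exact sup_le (by rw [J_one, zpowers_le]; exact h) le_rfl
      · right
        rw [← J_sup (s := s) (x := x) (i := 1) (i' := (m : ℤ)) (l := m - 1) (l' := 1) (L := m) (by omega) (by omega) (by omega) (by omega)]
        exact sup_le le_rfl (by rw [J_one, zpowers_le]; exact h)
    rcases hle with h2 | h2 <;>
    · have h3 := card_le_of_le h2
      rw [hcard _ m le_rfl, hcard _ (m - 1) (by omega)] at h3
      have := (Nat.pow_le_pow_iff_right (by norm_num : 1 < 2)).1 h3
      omega
  have hrot : (pt s x 0 * pt s x m) ^ n ∈ J s x 1 (m - 1) := by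
    rw [← hc.hQ]
    exact hc.rot _ _ (hmem 0 le_rfl (by omega)) (hmem m (by omega) le_rfl) (sq 0) (sq m)
      (by rw [hc.hQ]; exact hQnot 0 (Or.inl rfl)) (by rw [hc.hQ]; exact hQnot m (Or.inr rfl))
  obtain ⟨r, hC, hcase⟩ := orbit_structure (n := 2) Nat.prime_two hm1 hcard hc.cen
  have down : ∀ (A : Set H) (a : H), (a : G) ∈ closure (H.subtype '' A) → a ∈ closure A := by
    intro A a ha
    rw [← MonoidHom.map_closure] at ha
    exact (mem_map_iff_mem H.subtype_injective).1 ha
  have up : ∀ (A : Set H) (a : H), a ∈ closure A → (a : G) ∈ closure (H.subtype '' A) := by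
    intro A a ha
    rw [← MonoidHom.map_closure]
    exact mem_map_of_mem _ ha
  rcases hcase with hle | ⟨hr2, hmid, hnc, a, b, ha, hab, hbr, hlow, hhigh, hwa, hwb⟩
  · obtain rfl : m = 2 := le_antisymm hle hc.two_le
    refine ⟨Or.inl (by rw [hPc]; rfl), Or.inl ?_⟩
    have hQ1 : J s x 1 (2 - 1) = closure ({pt s x 1} : Set G) := by rw [J_one, zpowers_eq_closure]
    have h01 : Commute (pt s x 0) (pt s x 1) := by
      haveI : Fact (Nat.Prime 2) := ⟨by norm_num⟩
      have := IsPGroup.isMulCommutative_of_card_eq_prime_sq (p := 2) (G := J s x 0 2) (by rw [hcard 0 2 le_rfl])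
      exact congrArg Subtype.val (mul_comm' (⟨_, pt_mem (j := 0) le_rfl (by norm_num)⟩ : J s x 0 2)
        ⟨_, pt_mem (j := 1) (by norm_num) (by norm_num)⟩)
    have h12 : Commute (pt s x 1) (pt s x 2) := commute_of_shift (k := 1) h01
    refine case_two (x0 := ξ 0 le_rfl (by omega)) (x1 := ξ 1 (by omega) (by omega)) (x2 := ξ 2 (by omega) (by omega))
      (Subtype.ext (sq 0)) (Subtype.ext (sq 1)) (Subtype.ext (sq 2)) (fun h => ne1 1 (congrArg Subtype.val h))
      (Subtype.ext h01) (Subtype.ext h12) ?_ ?_ n hc.odd ?_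
    · intro h
      have := up _ _ h
      rw [Set.image_singleton] at this
      exact hQnot 0 (Or.inl rfl) (by rw [hQ1]; exact this)
    · refine closure_lift_eq_top ?_
      conv_lhs => rw [hc.hH, J]
      rw [closure_le]
      rintro _ ⟨j, ⟨hj1, hj2⟩, rfl⟩
      refine subset_closure ?_
      simp only [Set.image_insert_eq, Set.image_singleton, Set.mem_insert_iff, Set.mem_singleton_iff]
      interval_cases j <;> simp [ξ]
    · refine down _ _ ?_
      rw [Set.image_singleton]
      rw [hQ1] at hrot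
      simpa [ξ] using hrot
  obtain hm | hm | hm : m = 3 ∨ m = 4 ∨ m = 6 := by omega
  · subst hm
    obtain ⟨rfl, rfl, rfl⟩ : r = 1 ∧ a = 1 ∧ b = 1 := by omega
    refine ⟨Or.inr (Or.inl (by rw [hPc]; rfl)), Or.inr (Or.inl ?_)⟩
    norm_num at hnc hwb
    have hw : ⁅pt s x 0, pt s x 2⁆ = pt s x 1 := by
      rcases mem_one hm1 hcard hwb with h | h
      · exact absurd (commutatorElement_eq_one_iff_commute.1 h) hnc
      · exact h
    have hw' : ⁅pt s x 1, pt s x 3⁆ = pt s x 2 := by
      have := shift_comm (s := s) (x := x) 1 0 2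
      rw [hw, pt_shift] at this
      exact this.symm
    have hQ1 : J s x 1 (3 - 1) = closure ({pt s x 1, pt s x 2} : Set G) := by
      refine le_antisymm ?_ ?_ <;> rw [J, closure_le]
      · rintro _ ⟨j, ⟨h1, h2⟩, rfl⟩
        refine subset_closure ?_
        interval_cases j <;> simp
      · rintro g (rfl | rfl) <;> exact subset_closure ⟨_, ⟨by norm_num, by norm_num⟩, rfl⟩
    have hC' : ∀ i j : ℤ, j ≤ i + 1 → i ≤ j + 1 → Commute (pt s x i) (pt s x j) := fun i j h1 h2 =>
      hC i j (by exact_mod_cast h1) (by exact_mod_cast h2)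
    refine case_three (x0 := ξ 0 le_rfl (by omega)) (x1 := ξ 1 (by omega) (by omega))
      (x2 := ξ 2 (by omega) (by omega)) (x3 := ξ 3 (by omega) (by omega))
      (Subtype.ext (sq 0)) (Subtype.ext (sq 1)) (Subtype.ext (sq 2)) (Subtype.ext (sq 3))
      (fun h => ne1 1 (congrArg Subtype.val h)) (fun h => ne1 2 (congrArg Subtype.val h)) ?_
      (Subtype.ext (hC' 0 1 (by norm_num) (by norm_num))) (Subtype.ext (hC' 1 2 (by norm_num) (by norm_num)))
      (Subtype.ext (hC' 2 3 (by norm_num) (by norm_num))) (Subtype.ext ?_) (Subtype.ext ?_) ?_ n hc.odd ?_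
    · intro h
      have h1 : pt s x 1 = pt s x 2 := congrArg Subtype.val h
      have h2 : J s x 1 2 ≤ J s x 1 1 := by
        rw [show J s x 1 2 = closure ({pt s x 1, pt s x 2} : Set G) from hQ1, closure_le, ← h1]
        rintro g (rfl | rfl) <;> exact pt_mem le_rfl (by norm_num)
      have h3 := card_le_of_le h2
      rw [hcard 1 2 (by omega), hcard 1 1 (by omega)] at h3
      norm_num at h3
    · show pt s x 0 * pt s x 2 * (pt s x 0)⁻¹ = pt s x 1 * pt s x 2
      rw [conj_comm_left, hw]
    · show pt s x 3 * pt s x 1 * (pt s x 3)⁻¹ = pt s x 1 * pt s x 2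
      rw [conj_comm_right (sq 1) (sq 3), hw']
    · refine closure_lift_eq_top ?_
      conv_lhs => rw [hc.hH, J]
      rw [closure_le]
      rintro _ ⟨j, ⟨hj1, hj2⟩, rfl⟩
      refine subset_closure ?_
      simp only [Set.image_insert_eq, Set.image_singleton, Set.mem_insert_iff, Set.mem_singleton_iff]
      interval_cases j <;> simp [ξ]
    · refine down _ _ ?_
      rw [Set.image_pair]
      rw [hQ1] at hrot
      simpa [ξ] using hrot
  · subst hm
    obtain rfl : r = 2 := by omega
    refine ⟨Or.inr (Or.inr (by rw [hPc]; rfl)), Or.inr (Or.inr ?_)⟩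
    have hC' : ∀ i j : ℤ, j ≤ i + 2 → i ≤ j + 2 → Commute (pt s x i) (pt s x j) := fun i j h1 h2 =>
      hC i j (by exact_mod_cast h1) (by exact_mod_cast h2)
    have hwb2 : ⁅pt s x 0, pt s x 3⁆ ∈ J s x 1 2 := by
      have := J_mono (s := s) (x := x) (i := 1) (i' := 1) (l := 2) (l' := b) le_rfl (by omega) hwb
      norm_num at this
      exact this
    have hJ12 : J s x 1 2 = closure ({pt s x 1, pt s x 2} : Set G) := by
      refine le_antisymm ?_ ?_ <;> rw [J, closure_le]
      · rintro _ ⟨j, ⟨h1, h2⟩, rfl⟩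
        refine subset_closure ?_
        interval_cases j <;> simp
      · rintro g (rfl | rfl) <;> exact subset_closure ⟨_, ⟨by norm_num, by norm_num⟩, rfl⟩
    rw [hJ12] at hwb2
    have hQ1 : J s x 1 (4 - 1) = closure ({pt s x 1, pt s x 2, pt s x 3} : Set G) := by
      refine le_antisymm ?_ ?_ <;> rw [J, closure_le]
      · rintro _ ⟨j, ⟨h1, h2⟩, rfl⟩
        refine subset_closure ?_
        interval_cases j <;> simp
      · rintro g (rfl | rfl | rfl) <;> exact subset_closure ⟨_, ⟨by norm_num, by norm_num⟩, rfl⟩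
    have hshift : ∀ v, ⁅pt s x 0, pt s x 3⁆ = v → ⁅pt s x 1, pt s x 4⁆ = (s ^ (1 : ℤ) : MulAut G) v := by
      intro v hv
      rw [← hv, shift_comm]
      norm_num
    let cc : G ≃* G := MulAut.conj (pt s x 0 * pt s x 4)
    have hcc : ∀ g, cc g = pt s x 0 * (pt s x 4 * g * (pt s x 4)⁻¹) * (pt s x 0)⁻¹ := by
      intro g; simp [cc, mul_assoc]
    have hd : ∀ u a b : G, u * (a * b) * u⁻¹ = (u * a * u⁻¹) * (u * b * u⁻¹) := fun u a b => by group
    have hfix : ∀ i j : ℤ, j ≤ i + 2 → i ≤ j + 2 → pt s x i * pt s x j * (pt s x i)⁻¹ = pt s x j :=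
      fun i j h1 h2 => by rw [(hC' i j h1 h2).eq, mul_inv_cancel_right]
    have hq2 : cc (pt s x 2) = pt s x 2 := by
      rw [hcc, hfix 4 2 (by norm_num) (by norm_num), hfix 0 2 (by norm_num) (by norm_num)]
    have hcn : Commute ((pt s x 0 * pt s x 4) ^ n) (pt s x 1) := by
      have h1 : (pt s x 0 * pt s x 4) ^ n ∈ J s x 1 (4 - 1) := hrot
      refine (comm_mem (c := 1) (fun j h2 h3 => hC' _ _ (by push_cast at h3; omega) (by omega)) h1).symm
    have hfinish : Commute ((pt s x 0 * pt s x 4) ^ 4) (pt s x 1) → cc (pt s x 1) = pt s x 1 := by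
      intro h4
      obtain ⟨i, hi⟩ := hc.odd
      have h1 := (hcn.pow_left n).mul_left ((h4.pow_left (i * i + i)).inv_left)
      rw [← pow_mul, ← pow_mul, show n * n = 4 * (i * i + i) + 1 by rw [hi]; ring, pow_succ', mul_inv_cancel_right] at h1
      show pt s x 0 * pt s x 4 * pt s x 1 * (pt s x 0 * pt s x 4)⁻¹ = pt s x 1
      rw [h1.eq, mul_inv_cancel_right]
    have hcc4 : ∀ g, cc (cc (cc (cc g))) = (pt s x 0 * pt s x 4) ^ 4 * g * ((pt s x 0 * pt s x 4) ^ 4)⁻¹ := by
      intro g; simp [cc, pow_succ, mul_assoc]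
    have hw : ⁅pt s x 0, pt s x 3⁆ = pt s x 1 * pt s x 2 := by
      rcases mem_pair (sq 1) (sq 2) (hC' 1 2 (by norm_num) (by norm_num)) hwb2 with h | h | h | h
      · exact absurd (commutatorElement_eq_one_iff_commute.1 h) (by norm_num at hnc; exact hnc)
      · exfalso
        have h' := hshift _ h
        rw [pt_shift] at h'
        norm_num at h'
        have h1 : cc (pt s x 1) = pt s x 1 * pt s x 2 := by
          rw [hcc, conj_comm_right (sq 1) (sq 4), h', hd, hfix 0 1 (by norm_num) (by norm_num),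
            hfix 0 2 (by norm_num) (by norm_num)]
        have h2 := hfinish (mul_inv_eq_iff_eq_mul.1 (by
          rw [← hcc4, h1, map_mul, h1, hq2, mul_assoc, sq 2, mul_one, h1, map_mul, h1, hq2, mul_assoc, sq 2, mul_one]))
        rw [h1] at h2
        exact ne1 2 (mul_eq_left.1 h2)
      · exfalso
        have h' := hshift _ h
        rw [pt_shift] at h'
        norm_num at h'
        have h3c : cc (pt s x 3) = pt s x 2 * pt s x 3 := by
          rw [hcc, hfix 4 3 (by norm_num) (by norm_num), conj_comm_left, h]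
        have h1 : cc (pt s x 1) = pt s x 1 * (pt s x 2 * pt s x 3) := by
          rw [hcc, conj_comm_right (sq 1) (sq 4), h', hd, hfix 0 1 (by norm_num) (by norm_num), conj_comm_left, h]
        have h11 : cc (cc (pt s x 1)) = pt s x 1 * pt s x 2 := by
          rw [h1, map_mul, h1, map_mul, hq2, h3c]
          rw [show pt s x 1 * (pt s x 2 * pt s x 3) * (pt s x 2 * (pt s x 2 * pt s x 3)) =
            pt s x 1 * pt s x 2 * (pt s x 3 * (pt s x 2 * pt s x 2) * pt s x 3) by group, sq 2, mul_one, sq 3, mul_one]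
        have h2 := hfinish (mul_inv_eq_iff_eq_mul.1 (by
          rw [← hcc4, h11, map_mul, map_mul, h11, hq2, hq2, mul_assoc, sq 2, mul_one]))
        rw [h1] at h2
        have h5 : pt s x 2 * pt s x 3 = 1 := mul_eq_left.1 h2
        have h6 : J s x 2 2 ≤ J s x 2 1 := by
          rw [← J_sup (s := s) (x := x) (i := 2) (i' := 3) (l := 1) (l' := 1) (L := 2) (by omega) (by omega) (by omega) (by omega)]
          refine sup_le le_rfl ?_
          rw [J_one, zpowers_le, eq_inv_of_mul_eq_one_right h5]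
          exact inv_mem (pt_mem le_rfl (by norm_num))
        have h7 := card_le_of_le h6
        rw [hcard 2 2 (by omega), hcard 2 1 (by omega)] at h7
        norm_num at h7
      · exact h
    have hw' : ⁅pt s x 1, pt s x 4⁆ = pt s x 2 * pt s x 3 := by
      rw [hshift _ hw, map_mul, pt_shift, pt_shift]
      norm_num
    refine case_four (x0 := ξ 0 le_rfl (by omega)) (x1 := ξ 1 (by omega) (by omega))
      (x2 := ξ 2 (by omega) (by omega)) (x3 := ξ 3 (by omega) (by omega)) (x4 := ξ 4 (by omega) (by omega))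
      (Subtype.ext (sq 0)) (Subtype.ext (sq 1)) (Subtype.ext (sq 2)) (Subtype.ext (sq 3)) (Subtype.ext (sq 4))
      (Subtype.ext (hC' 0 1 (by norm_num) (by norm_num))) (Subtype.ext (hC' 0 2 (by norm_num) (by norm_num)))
      (Subtype.ext (hC' 1 2 (by norm_num) (by norm_num))) (Subtype.ext (hC' 1 3 (by norm_num) (by norm_num)))
      (Subtype.ext (hC' 2 3 (by norm_num) (by norm_num))) (Subtype.ext (hC' 2 4 (by norm_num) (by norm_num)))
      (Subtype.ext (hC' 3 4 (by norm_num) (by norm_num))) (Subtype.ext ?_) (Subtype.ext ?_) ?_ ?_ n hc.odd ?_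
    · show pt s x 0 * pt s x 3 * (pt s x 0)⁻¹ = pt s x 1 * pt s x 2 * pt s x 3
      rw [conj_comm_left, hw]
    · show pt s x 4 * pt s x 1 * (pt s x 4)⁻¹ = pt s x 1 * pt s x 2 * pt s x 3
      rw [conj_comm_right (sq 1) (sq 4), hw', ← mul_assoc]
    · rw [← card_map_of_injective (f := H.subtype) H.subtype_injective, MonoidHom.map_closure]
      have : H.subtype '' {ξ 1 (by omega) (by omega), ξ 2 (by omega) (by omega), ξ 3 (by omega) (by omega)} =
          ({pt s x 1, pt s x 2, pt s x 3} : Set G) := by simp [Set.image_insert_eq, ξ]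
      rw [this, ← hQ1, hcard 1 _ (by omega)]
      norm_num
    · refine closure_lift_eq_top ?_
      conv_lhs => rw [hc.hH, J]
      rw [closure_le]
      rintro _ ⟨j, ⟨hj1, hj2⟩, rfl⟩
      refine subset_closure ?_
      simp only [Set.image_insert_eq, Set.image_singleton, Set.mem_insert_iff, Set.mem_singleton_iff]
      interval_cases j <;> simp [ξ]
    · refine down _ _ ?_
      rw [hQ1] at hrot
      simpa [ξ, Set.image_insert_eq] using hrot
  · subst hm
    exact (ne_six hc hC hnc (by omega) (by omega) (by omega) hwa hwb).elim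

end Cfsg.Agent.FGS4.Dihedral
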