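import Cfsg.Agent.FGS4.ShiftChain.Main
import Cfsg.Agent.Core.Cores
import Cfsg.Prelude.Def_Solvable
import Mathlib.GroupTheory.SpecificGroups.Dihedral
import Mathlib.GroupTheory.Index

/-! # A dihedral group over its two-core, with an outer normalizing two-element -/

set_option linter.style.haveILetI false
set_option linter.unusedSectionVars false

namespace Cfsg.Agent.FGS4.Dihedral

open Subgroup Cfsg.Agent.FGS4.ShiftChain
open scoped Pointwise commutatorElement

section quotient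

variable {H : Type*} [Group H] [Finite H] {n : ℕ}

theorem odd_n (hn : 2 ≤ n) (φ : H ⧸ Cfsg.pCore 2 H ≃* DihedralGroup n) : Odd n := by
  rw [← Nat.not_even_iff_odd]
  rintro ⟨j, hj⟩
  haveI : NeZero n := ⟨by omega⟩
  haveI : Fact (Nat.Prime 2) := ⟨by norm_num⟩
  set z : DihedralGroup n := DihedralGroup.r (j : ZMod n) with hz
  have hjj : (j : ZMod n) = -(j : ZMod n) := by
    rw [eq_neg_iff_add_eq_zero, ← Nat.cast_add, ← hj, ZMod.natCast_self]
  have hzc : ∀ d : DihedralGroup n, d * z = z * d := by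
    rintro (i | i)
    · rw [hz, DihedralGroup.r_mul_r, DihedralGroup.r_mul_r, add_comm]
    · rw [hz, DihedralGroup.sr_mul_r, DihedralGroup.r_mul_sr, sub_eq_add_neg, ← hjj]
  set f : H →* DihedralGroup n := φ.toMonoidHom.comp (QuotientGroup.mk' _) with hf
  have hzn : (zpowers z).Normal := ⟨fun a ha d => by
    obtain ⟨i, rfl⟩ := mem_zpowers_iff.1 ha
    rw [((show Commute d z from hzc d).zpow_right i).eq, mul_inv_cancel_right]
    exact ⟨i, rfl⟩⟩
  have hz2 : z ^ 2 = 1 := by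
    rw [pow_two, hz, DihedralGroup.r_mul_r, ← Nat.cast_add, ← hj, ZMod.natCast_self]; rfl
  have hp : IsPGroup 2 (zpowers z) := by
    obtain ⟨i, hi, hic⟩ := (Nat.dvd_prime_pow Nat.prime_two).1
      (show Nat.card (zpowers z) ∣ 2 ^ 1 by rw [Nat.card_zpowers, pow_one]; exact orderOf_dvd_of_pow_eq_one hz2)
    exact IsPGroup.of_card hic
  have hker : IsPGroup 2 f.ker := by
    have : f.ker = Cfsg.pCore 2 H := by
      ext g
      simp [hf, MonoidHom.mem_ker]
    rw [this]; exact Core.isPGroup_pCore 2 H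
  have hle := Core.le_pCore (hzn.comap f) (hp.comap_of_ker_isPGroup f hker)
  obtain ⟨g, hg⟩ : ∃ g, f g = z := (φ.surjective.comp (QuotientGroup.mk'_surjective _)) z
  have hgQ : g ∈ Cfsg.pCore 2 H := hle (show f g ∈ zpowers z by rw [hg]; exact mem_zpowers z)
  have h1 : z = 1 := by
    rw [← hg, hf, MonoidHom.comp_apply, QuotientGroup.mk'_apply, (QuotientGroup.eq_one_iff g).2 hgQ, map_one]
  rw [hz, DihedralGroup.one_def, DihedralGroup.r.injEq, ZMod.natCast_eq_zero_iff] at h1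
  have h2 := Nat.le_of_dvd (by omega) h1
  omega

theorem card_H (hn : 2 ≤ n) (φ : H ⧸ Cfsg.pCore 2 H ≃* DihedralGroup n) :
    Nat.card H = 2 * n * Nat.card (Cfsg.pCore 2 H) := by
  haveI : NeZero n := ⟨by omega⟩
  rw [card_eq_card_quotient_mul_card_subgroup (Cfsg.pCore 2 H), Nat.card_congr φ.toEquiv, DihedralGroup.nat_card]

/-- The Sylow two-subgroup and a conjugate of it generate, meeting in the two-core. -/
theorem sylow_facts (hn : 2 ≤ n) (φ : H ⧸ Cfsg.pCore 2 H ≃* DihedralGroup n) (P0 : Subgroup H)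
    (hP : IsPGroup 2 P0) (hidx : ¬ 2 ∣ P0.index) :
    Cfsg.pCore 2 H ≤ P0 ∧ Nat.card P0 = 2 * Nat.card (Cfsg.pCore 2 H) ∧
      (∃ k : H, P0 ⊔ P0.map (MulAut.conj k⁻¹).toMonoidHom = ⊤) ∧
      ∀ a b : H, a * a = 1 → b * b = 1 → a ∉ Cfsg.pCore 2 H → b ∉ Cfsg.pCore 2 H →
        (a * b) ^ n ∈ Cfsg.pCore 2 H := by
  haveI : NeZero n := ⟨by omega⟩
  haveI : Fact (Nat.Prime 2) := ⟨by norm_num⟩
  have hodd := odd_n hn φ
  set Q := Cfsg.pCore 2 H with hQ
  haveI : Q.Normal := inferInstance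
  set f : H →* DihedralGroup n := φ.toMonoidHom.comp (QuotientGroup.mk' _) with hf
  have hker : ∀ g, f g = 1 ↔ g ∈ Q := fun g => by simp [hf, hQ]
  have hfs : Function.Surjective f := φ.surjective.comp (QuotientGroup.mk'_surjective _)
  have hQP : Q ≤ P0 := by
    have hU : IsPGroup 2 (Q ⊔ P0 : Subgroup H) := IsPGroup.to_sup_of_normal_left (Core.isPGroup_pCore 2 H) hP
    obtain ⟨i, hi⟩ := IsPGroup.iff_card.1 hU
    have h1 : P0.relIndex (Q ⊔ P0) ∣ 2 ^ i := hi ▸ relIndex_dvd_card P0 (Q ⊔ P0)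
    obtain ⟨j, -, hj⟩ := (Nat.dvd_prime_pow Nat.prime_two).1 h1
    have h2 : P0.relIndex (Q ⊔ P0) ∣ P0.index := relIndex_dvd_index_of_le le_sup_right
    have h3 : P0.relIndex (Q ⊔ P0) = 1 := by
      rcases Nat.eq_zero_or_pos j with rfl | hj0
      · simpa using hj
      · exact absurd ((dvd_pow_self 2 (by omega)).trans (hj ▸ h2)) hidx
    exact le_sup_left.trans (relIndex_eq_one.1 h3)
  obtain ⟨a, ha⟩ := IsPGroup.iff_card.1 hP
  obtain ⟨b, hb⟩ := IsPGroup.iff_card.1 (Core.isPGroup_pCore 2 H)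
  have hHc := card_H hn φ
  have hPc : Nat.card P0 = 2 * Nat.card Q := by
    have h1 := P0.card_mul_index
    rw [hHc, ha, ← hQ, hb] at h1
    rw [ha, hb, ← pow_succ']
    have hc1 : Nat.Coprime (2 ^ a) n := Nat.Coprime.pow_left a (Nat.coprime_two_left.2 hodd)
    have hc2 : Nat.Coprime (2 ^ (b + 1)) P0.index :=
      Nat.Coprime.pow_left (b + 1) ((Nat.Prime.coprime_iff_not_dvd Nat.prime_two).2 hidx)
    have d1 : 2 ^ a ∣ 2 ^ (b + 1) := hc1.dvd_of_dvd_mul_right (Dvd.intro _ (h1.trans (by rw [pow_succ]; ring)))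
    have d2 : 2 ^ (b + 1) ∣ 2 ^ a := hc2.dvd_of_dvd_mul_right ⟨n, by rw [h1, pow_succ]; ring⟩
    exact Nat.dvd_antisymm d1 d2
  have hrot : ∀ d : DihedralGroup n, d * d = 1 → d ≠ 1 → ∃ i, d = DihedralGroup.sr i := by
    rintro (i | i) hd hne
    · refine absurd ?_ hne
      have h2 : orderOf (DihedralGroup.r i) ∣ Nat.gcd 2 n := by
        refine Nat.dvd_gcd (orderOf_dvd_of_pow_eq_one (by rw [pow_two, hd])) (orderOf_dvd_of_pow_eq_one ?_)
        rw [DihedralGroup.r_pow, ZMod.natCast_self, mul_zero]; rfl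
      rw [Nat.Coprime.gcd_eq_one (Nat.coprime_two_left.2 hodd)] at h2
      exact orderOf_eq_one_iff.1 (Nat.dvd_one.1 h2)
    · exact ⟨i, rfl⟩
  refine ⟨hQP, hPc, ?_, fun u v hu hv hu1 hv1 => ?_⟩
  · obtain ⟨t, htP, htQ⟩ : ∃ t ∈ P0, t ∉ Q := by
      by_contra hall
      push Not at hall
      have := card_le_of_le (show P0 ≤ Q from hall)
      rw [hPc] at this
      have : 0 < Nat.card Q := Nat.card_pos
      omega
    have hsq : f t * f t = 1 := by
      have hidx2 : (Q.subgroupOf P0).index = 2 := by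
        have h1 := (Q.subgroupOf P0).card_mul_index
        rw [Nat.card_congr (subgroupOfEquivOfLe hQP).toEquiv, hPc, mul_comm] at h1
        exact Nat.eq_of_mul_eq_mul_right (Nat.card_pos) h1
      have h1 : (⟨t, htP⟩ : P0) * ⟨t, htP⟩ ∈ Q.subgroupOf P0 := mul_self_mem_of_index_two hidx2 _
      rw [← map_mul, hker]
      exact h1
    obtain ⟨i, hi⟩ := hrot _ hsq (fun h => htQ ((hker t).1 h))
    obtain ⟨k, hk⟩ := hfs (DihedralGroup.r 1)
    refine ⟨k, ?_⟩
    set X := P0 ⊔ P0.map (MulAut.conj k⁻¹).toMonoidHom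
    have h1 : DihedralGroup.sr i ∈ X.map f := ⟨t, mem_sup_left htP, hi⟩
    have h2 : DihedralGroup.sr (i + 1 + 1) ∈ X.map f := by
      refine ⟨k⁻¹ * t * k⁻¹⁻¹, mem_sup_right ⟨t, htP, rfl⟩, ?_⟩
      rw [map_mul, map_mul, inv_inv, map_inv, hk, hi, DihedralGroup.inv_r, DihedralGroup.r_mul_sr,
        DihedralGroup.sr_mul_r, sub_neg_eq_add]
    have h3 : DihedralGroup.r (2 : ZMod n) ∈ X.map f := by
      have h := mul_mem h1 h2
      rwa [DihedralGroup.sr_mul_sr, add_assoc, add_sub_cancel_left, show (1 : ZMod n) + 1 = 2 by norm_num] at h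
    have h4 : ∀ j : ZMod n, DihedralGroup.r j ∈ X.map f := by
      intro j
      obtain ⟨l, hl⟩ : ∃ l, n + 1 = 2 * l := by
        obtain ⟨q, hq⟩ := hodd; exact ⟨q + 1, by omega⟩
      have h5 := pow_mem h3 (l * j.val)
      rw [DihedralGroup.r_pow, Nat.cast_mul, ← mul_assoc, show (2 : ZMod n) * (l : ZMod n) = ((2 * l : ℕ) : ZMod n) by
        push_cast; rfl, ← hl, Nat.cast_add, ZMod.natCast_self, zero_add, Nat.cast_one, one_mul,
        ZMod.natCast_zmod_val] at h5
      exact h5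
    have htop : X.map f = ⊤ := by
      rw [eq_top_iff]
      rintro (j | j) -
      · exact h4 j
      · have h := mul_mem h1 (h4 (j - i))
        rwa [DihedralGroup.sr_mul_r, add_sub_cancel] at h
    have h6 : X ⊔ f.ker = ⊤ := by rw [← comap_map_eq, htop, comap_top]
    rwa [sup_eq_left.2 (fun g hg => mem_sup_left (hQP ((hker g).1 hg)))] at h6
  · obtain ⟨i, hi⟩ := hrot (f u) (by rw [← map_mul, hu, map_one]) (fun h => hu1 ((hker u).1 h))
    obtain ⟨j, hj⟩ := hrot (f v) (by rw [← map_mul, hv, map_one]) (fun h => hv1 ((hker v).1 h))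
    rw [← hker, map_pow, map_mul, hi, hj, DihedralGroup.sr_mul_sr, DihedralGroup.r_pow, ZMod.natCast_self, mul_zero]
    rfl

end quotient

variable {G : Type*} [Group G] [Finite G]

/-- The configuration in orbit form. -/
structure Config (H P Q : Subgroup G) (y : G) (s : MulAut G) (x : G) (m n : ℕ) : Prop where
  two_le : 2 ≤ m
  odd : Odd n
  hP : P = J s x 0 m
  hH : H = J s x 0 (m + 1)
  hQ : Q = J s x 1 (m - 1)
  card : ∀ i l, l ≤ m → Nat.card (J s x i l) = 2 ^ l
  rot : ∀ a b : G, a ∈ H → b ∈ H → a * a = 1 → b * b = 1 → a ∉ Q → b ∉ Q → (a * b) ^ n ∈ Q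
  cen : ∀ j : ℤ, 0 ≤ j → j < m → ∃ k : ℤ, 0 ≤ k ∧ k < m + 2 ∧ ¬ Commute (pt s x j) (pt s x k)
  step : ∀ X : Subgroup G, X ≤ P → H ≤ normalizer (X : Set G) →
    (X.map (MulAut.conj y).toMonoidHom).map s.toMonoidHom = X ∧
      (X.map (MulAut.conj y).toMonoidHom).map (MulAut.conj y).toMonoidHom = X

theorem exists_config (H : Subgroup G) (hO : Cfsg.pCore 2 H ≠ ⊥) (n : ℕ) (hn : 2 ≤ n)
    (φ : H ⧸ Cfsg.pCore 2 H ≃* DihedralGroup n)
    (P : Subgroup G) (hPH : P ≤ H) (hP : IsPGroup 2 P) (hPsyl : ¬ 2 ∣ P.relIndex H) (y : G)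
    (hy2 : y ^ 2 ∈ P ⊔ centralizer (P : Set G)) (hyN : MulAut.conj y • P = P)
    (hyQ : ∀ Q : Subgroup G, Q ≤ P → (Q.subgroupOf H).Normal → MulAut.conj y • Q = Q → Q = ⊥) :
    ∃ (m : ℕ) (s : MulAut G) (x : G), Config H P ((Cfsg.pCore 2 H).map H.subtype) y s x m n := by
  haveI : Fact (Nat.Prime 2) := ⟨by norm_num⟩
  obtain ⟨hQP0, hPc0, ⟨k0, hk0⟩, hrot⟩ := sylow_facts hn φ (P.subgroupOf H)
    (hP.comap_of_injective H.subtype H.subtype_injective) hPsyl
  have hodd := odd_n hn φ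
  have hHc0 := card_H hn φ
  set Q := (Cfsg.pCore 2 H).map H.subtype with hQdef
  have hQH : Q ≤ H := map_subtype_le _
  have hQc : Nat.card Q = Nat.card (Cfsg.pCore 2 H) := card_map_of_injective H.subtype_injective
  have hQP : Q ≤ P := by
    rw [hQdef, map_le_iff_le_comap]; exact hQP0
  have hPc : Nat.card P = 2 * Nat.card Q := by
    rw [hQc, ← hPc0, Nat.card_congr (subgroupOfEquivOfLe hPH).toEquiv]
  set k : G := (k0 : G) with hk
  have hkH : k ∈ H := k0.2
  have hQn : H ≤ normalizer (Q : Set G) := by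
    rw [← normal_subgroupOf_iff_le_normalizer hQH, hQdef, subgroupOf, comap_map_eq_self_of_injective H.subtype_injective]
    infer_instance
  set g := y * k with hg
  let s : MulAut G := sh g
  have hs : ∀ a : G, s a = k⁻¹ * (y⁻¹ * a * y) * k := by
    intro a; show MulAut.conj g⁻¹ a = _; simp [hg, mul_assoc]
  have hyP : P.map (MulAut.conj y).toMonoidHom = P := hyN
  have hyP' : ∀ a ∈ P, y⁻¹ * a * y ∈ P := by
    intro a ha
    obtain ⟨b, hb, rfl⟩ := hyP.ge ha
    simpa [mul_assoc] using hb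
  have hsP : P.map (sh g).toMonoidHom = P.map (MulAut.conj k⁻¹).toMonoidHom := by
    refine eq_of_le_of_card_ge ?_ (by rw [card_map_of_injective (MulAut.conj k⁻¹).injective, card_map_of_injective (sh g).injective])
    rintro _ ⟨a, ha, rfl⟩
    refine ⟨y⁻¹ * a * y, hyP' a ha, ?_⟩
    show k⁻¹ * (y⁻¹ * a * y) * k⁻¹⁻¹ = MulAut.conj g⁻¹ a
    simp [hg, mul_assoc]
  have hsPH : P.map (sh g).toMonoidHom ≤ H := by
    rw [hsP]; rintro _ ⟨a, ha, rfl⟩
    exact mul_mem (mul_mem (inv_mem hkH) (hPH ha)) (inv_mem (inv_mem hkH))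
  have hgen : P ⊔ P.map (sh g).toMonoidHom = H := by
    have h1 := congrArg (Subgroup.map H.subtype) hk0
    rw [← MonoidHom.range_eq_map, Subgroup.range_subtype, Subgroup.map_sup, map_subgroupOf_eq_of_le hPH] at h1
    rw [hsP]
    refine Eq.trans ?_ h1
    congr 1
    conv_lhs => rw [← map_subgroupOf_eq_of_le hPH]
    rw [Subgroup.map_map, Subgroup.map_map]
    rfl
  have hQs : Q ≤ P.map (sh g).toMonoidHom := by
    rw [hsP]
    intro q hq
    have hkq : k * q * k⁻¹ ∈ Q := (mem_normalizer_iff.1 (hQn hkH) q).1 hq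
    exact ⟨k * q * k⁻¹, hQP hkq, by show k⁻¹ * (k * q * k⁻¹) * k⁻¹⁻¹ = q; group⟩
  have hne : ¬ P.map (sh g).toMonoidHom ≤ P := by
    intro hle
    rw [sup_eq_left.2 hle] at hgen
    have h := congrArg (fun K : Subgroup G => Nat.card K) hgen
    replace h : Nat.card P = Nat.card H := h
    rw [hPc, hHc0, ← hQc] at h
    have : 0 < Nat.card Q := Nat.card_pos
    nlinarith
  have hinf : P ⊓ P.map (sh g).toMonoidHom = Q := by
    refine (eq_of_le_of_card_ge (le_inf hQP hQs) ?_).symm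
    set D := P ⊓ P.map (sh g).toMonoidHom with hD
    have h1 : Nat.card D ∣ Nat.card P := card_dvd_of_le inf_le_left
    obtain ⟨c, hc⟩ := h1
    have h2 : 2 ≤ c := by
      by_contra hlt
      have hc1 : c = 1 := by
        rcases Nat.eq_zero_or_pos c with h | h
        · rw [h, mul_zero] at hc; exact absurd hc Nat.card_pos.ne'
        · omega
      rw [hc1, mul_one] at hc
      refine hne (le_of_eq ?_)
      rw [eq_comm]
      refine eq_of_le_of_card_ge ?_ (card_shift P).le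
      exact (eq_of_le_of_card_ge (inf_le_left (a := P) (b := P.map (sh g).toMonoidHom)) hc.le).ge.trans inf_le_right
    rw [hPc] at hc
    nlinarith
  have hdata : Data P g 2 := by
    have hidx : (P ⊓ P.map (sh g).toMonoidHom).relIndex (P.map (sh g).toMonoidHom) = 2 := by
      rw [hinf]
      have h1 := (Q.subgroupOf (P.map (sh g).toMonoidHom)).card_mul_index
      rw [Nat.card_congr (subgroupOfEquivOfLe hQs).toEquiv, card_shift, hPc, mul_comm 2] at h1
      exact Nat.eq_of_mul_eq_mul_left Nat.card_pos h1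
    refine ⟨Nat.prime_two, normal_of_index_eq_two hidx, hidx, fun Q0 hQ0 hQ0n hfix => ?_⟩
    have hQ0s : Q0 ≤ P.map (sh g).toMonoidHom := hfix ▸ map_mono hQ0
    have hN : H ≤ normalizer (Q0 : Set G) := by
      have hNP : P ≤ normalizer (Q0 : Set G) := (normal_subgroupOf_iff_le_normalizer hQ0).1 hQ0n
      rw [← hgen]
      refine sup_le hNP ?_
      calc P.map (sh g).toMonoidHom ≤ (normalizer (Q0 : Set G)).map (sh g).toMonoidHom := map_mono hNP
        _ ≤ normalizer ((Q0.map (sh g).toMonoidHom : Subgroup G) : Set G) := le_normalizer_map _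
        _ = normalizer (Q0 : Set G) := by rw [hfix]
    refine hyQ Q0 hQ0 ((normal_subgroupOf_iff_le_normalizer (hQ0.trans hPH)).2 hN) ?_
    show Q0.map (MulAut.conj y).toMonoidHom = Q0
    refine (eq_of_le_of_card_ge ?_ (card_map_of_injective (MulAut.conj y).injective).le).symm
    intro a ha
    have hle2 : Q0 ≤ Q0.map (MulAut.conj y⁻¹).toMonoidHom := by
      intro b hb'
      have hb2 : k⁻¹ * b * k ∈ Q0 := by
        have := (mem_normalizer_iff.1 (hN (inv_mem hkH)) b).1 hb'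
        simpa using this
      obtain ⟨e, he, hee⟩ := hfix.ge hb2
      refine ⟨e, he, ?_⟩
      show y⁻¹ * e * y⁻¹⁻¹ = b
      rw [inv_inv]
      exact mul_left_cancel (mul_right_cancel ((hs e).symm.trans hee))
    have heq := eq_of_le_of_card_ge hle2 (card_map_of_injective (MulAut.conj y⁻¹).injective).le
    have e : y⁻¹ * a * y ∈ Q0 := heq.ge ⟨a, ha, by show y⁻¹ * a * y⁻¹⁻¹ = _; rw [inv_inv]⟩
    exact ⟨y⁻¹ * a * y, e, by show y * (y⁻¹ * a * y) * y⁻¹ = a; group⟩
  obtain ⟨m, s', x, hm1, hs', hPJ, hcard⟩ := exists_orbit hdata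
  have hss : s' = s := hs'
  subst hss
  have hPm : Nat.card P = 2 ^ m := by rw [hPJ, hcard 0 m le_rfl]
  have hm2 : 2 ≤ m := by
    by_contra hlt
    have h1 : m = 1 := by omega
    rw [h1, pow_one, hPc] at hPm
    have h2 : Nat.card (Cfsg.pCore 2 H) = 1 := by rw [← hQc]; omega
    exact hO (eq_bot_of_card_eq _ h2)
  have hsJ : P.map (sh g).toMonoidHom = J s x 1 m := by
    rw [hPJ]
    exact map_J_one 0 m
  have hHJ : H = J s x 0 (m + 1) := by
    rw [← hgen, hsJ, hPJ, J_sup (L := m + 1) (by omega) (by omega) (by omega) (by omega)]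
  have hQJ : Q = J s x 1 (m - 1) := by
    refine (eq_of_le_of_card_ge ?_ ?_).symm
    · rw [← hinf, hsJ, hPJ]
      exact le_inf (J_mono (by omega) (by omega)) (J_mono le_rfl (by omega))
    · have h1 := hPc
      rw [hPm, show m = (m - 1) + 1 by omega, pow_succ] at h1
      rw [hcard 1 (m - 1) (by omega)]
      omega
  have hy2' : ∀ X : Subgroup G, X ≤ P → H ≤ normalizer (X : Set G) → y ^ 2 ∈ normalizer (X : Set G) :=
    fun X hX hXn => sup_le (hPH.trans hXn) ((centralizer_le hX).trans (centralizer_le_normalizer _)) hy2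
  refine ⟨m, s, x, hm2, hodd, hPJ, hHJ, hQJ, hcard, ?_, ?_, ?_⟩
  · intro a b ha hb ha2 hb2 ha1 hb1
    exact ⟨_, hrot ⟨a, ha⟩ ⟨b, hb⟩ (Subtype.ext ha2) (Subtype.ext hb2)
      (fun h => ha1 ⟨_, h, rfl⟩) (fun h => hb1 ⟨_, h, rfl⟩), rfl⟩
  · intro j hj0 hj
    by_contra hall
    push Not at hall
    set z := pt s x j with hz
    have hzP : z ∈ P := hPJ ▸ pt_mem hj0 (by omega)
    have hc2 : J s x 0 (m + 2) ≤ centralizer {z} := by
      rw [J, closure_le]
      rintro _ ⟨i, ⟨hi0, hi⟩, rfl⟩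
      rw [SetLike.mem_coe, mem_centralizer_singleton_iff]
      exact (hall i hi0 (by omega)).eq.symm
    have hzH : ∀ a ∈ H, Commute z a := fun a ha =>
      (mem_centralizer_singleton_iff.1 (hc2 (J_mono le_rfl (by omega) (hHJ ▸ ha)))).symm
    have hzY : ∀ a ∈ H, Commute z (y⁻¹ * a * y) := by
      intro a ha
      have h1 : s a ∈ J s x 0 (m + 2) := by
        have : s a ∈ J s x (0 + 1) (m + 1) := map_J_one (s := s) (x := x) 0 (m + 1) ▸ mem_map_of_mem _ (hHJ ▸ ha)
        exact J_mono (by omega) (by omega) this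
      have h2 : Commute z (k⁻¹ * (y⁻¹ * a * y) * k) := hs a ▸ (mem_centralizer_singleton_iff.1 (hc2 h1)).symm
      have h3 := ((hzH k hkH).mul_right h2).mul_right (hzH k hkH).inv_right
      simpa [mul_assoc] using h3
    set W : Subgroup G := P ⊓ centralizer (H : Set G) ⊓ centralizer ((H.map (MulAut.conj y⁻¹).toMonoidHom : Subgroup G) : Set G) with hW
    have hzW : z ∈ W := by
      refine mem_inf.2 ⟨mem_inf.2 ⟨hzP, mem_centralizer_iff.2 fun a ha => (hzH a ha).eq.symm⟩, mem_centralizer_iff.2 ?_⟩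
      rintro _ ⟨a, ha, rfl⟩
      show y⁻¹ * a * y⁻¹⁻¹ * z = z * (y⁻¹ * a * y⁻¹⁻¹)
      rw [inv_inv]
      exact (hzY a ha).eq.symm
    have hWP : W ≤ P := inf_le_left.trans inf_le_left
    have hWH : H ≤ normalizer (W : Set G) := by
      refine le_trans ?_ (centralizer_le_normalizer _)
      exact le_centralizer_iff.1 (inf_le_left.trans inf_le_right)
    have hWy : MulAut.conj y • W = W := by
      refine eq_of_le_of_card_ge ?_ (card_map_of_injective (MulAut.conj y).injective).ge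
      rintro _ ⟨w, hw, rfl⟩
      obtain ⟨⟨hwP, hwH⟩, hwY⟩ := hw
      show y * w * y⁻¹ ∈ W
      have h2 : ∀ a ∈ H, Commute (y * w * y⁻¹) a := by
        intro a ha
        have h3 : Commute w (y⁻¹ * a * y) :=
          (mem_centralizer_iff.1 hwY _ ⟨a, ha, by show y⁻¹ * a * y⁻¹⁻¹ = _; rw [inv_inv]⟩).symm
        have h4 := h3.map (MulAut.conj y).toMonoidHom
        simpa [mul_assoc] using h4
      have hfix : y ^ 2 * w = w * y ^ 2 := by
        have hle : P ⊔ centralizer (P : Set G) ≤ centralizer {w} := by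
          refine sup_le ?_ ?_ <;> intro a ha <;> rw [mem_centralizer_singleton_iff]
          · exact mem_centralizer_iff.1 hwH a (hPH ha)
          · exact (mem_centralizer_iff.1 ha w hwP).symm
        exact mem_centralizer_singleton_iff.1 (hle hy2)
      refine mem_inf.2 ⟨mem_inf.2 ⟨hyP.le ⟨w, hwP, rfl⟩, mem_centralizer_iff.2 fun a ha => (h2 a ha).eq.symm⟩,
        mem_centralizer_iff.2 ?_⟩
      rintro _ ⟨a, ha, rfl⟩
      have h3 : Commute (y * (y * w * y⁻¹) * y⁻¹) a := by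
        have h4 : y * (y * w * y⁻¹) * y⁻¹ = w := by
          rw [show y * (y * w * y⁻¹) * y⁻¹ = y ^ 2 * w * (y ^ 2)⁻¹ by rw [pow_two]; group, hfix, mul_inv_cancel_right]
        rw [h4]
        exact (mem_centralizer_iff.1 hwH a ha).symm
      have h5 := (h3.map (MulAut.conj y⁻¹).toMonoidHom).symm
      simpa [mul_assoc] using h5.eq
    have hbot := hyQ W hWP ((normal_subgroupOf_iff_le_normalizer (hWP.trans hPH)).2 hWH) hWy
    rw [hbot, mem_bot] at hzW
    have h1 := hcard j 1 (by omega)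
    rw [J_one, ← hz, hzW, zpowers_one_eq_bot, Subgroup.card_bot] at h1
    omega
  · intro X hX hXn
    refine ⟨?_, ?_⟩
    · refine eq_of_le_of_card_ge ?_ (by rw [card_map_of_injective s.injective, card_map_of_injective (MulAut.conj y).injective])
      rintro _ ⟨_, ⟨a, ha, rfl⟩, rfl⟩
      show s (y * a * y⁻¹) ∈ X
      rw [hs, show k⁻¹ * (y⁻¹ * (y * a * y⁻¹) * y) * k = k⁻¹ * a * k⁻¹⁻¹ by group]
      exact (mem_normalizer_iff.1 (hXn (inv_mem hkH)) a).1 ha
    · refine eq_of_le_of_card_ge ?_ (by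
        rw [card_map_of_injective (MulAut.conj y).injective, card_map_of_injective (MulAut.conj y).injective])
      rintro _ ⟨_, ⟨a, ha, rfl⟩, rfl⟩
      show y * (y * a * y⁻¹) * y⁻¹ ∈ X
      rw [show y * (y * a * y⁻¹) * y⁻¹ = y ^ 2 * a * (y ^ 2)⁻¹ by rw [pow_two]; group]
      exact (mem_normalizer_iff.1 (hy2' X hX hXn) a).1 ha

end Cfsg.Agent.FGS4.Dihedral
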