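import Cfsg.Agent.PLocal.ElemAb
import Mathlib.GroupTheory.Sylow
import Mathlib.GroupTheory.SpecificGroups.Cyclic
import Mathlib.GroupTheory.NoncommCoprod
import Mathlib.GroupTheory.Perm.Basic
import Mathlib.Tactic

/-! # Recognising the symmetric group of degree four -/

set_option linter.style.haveILetI false
set_option linter.unusedSectionVars false

namespace Cfsg.Agent.FGS4.Dihedral

open Subgroup

variable {M : Type*} [Group M] [Finite M]

/-- A normal subgroup of odd order is trivial if some normal two-group contains its centralizer. -/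
theorem odd_normal_eq_bot {N W : Subgroup M} (hN : N.Normal) (hW : W.Normal) (hodd : Odd (Nat.card N))
    {k : ℕ} (hk : Nat.card W = 2 ^ k) (hC : centralizer (W : Set M) ≤ W) : N = ⊥ := by
  have hd : Disjoint N W := disjoint_of_coprime_natCard (by
    rw [hk]; exact Nat.Coprime.pow_right k (Nat.coprime_two_right.2 hodd))
  have hle : N ≤ W := fun x hx => hC (mem_centralizer_iff.2 fun w hw =>
    ((commute_of_normal_of_disjoint N W hN hW hd x w hx hw).symm).eq)
  exact disjoint_self.1 (hd.mono_right hle)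

/-- An element of order dividing three fixing a nontrivial element of a group of order four centralizes
it. -/
theorem three_fix {T : Subgroup M} (hT : T.Normal) (hT4 : Nat.card T = 4) {c t : M} (hc : c ^ 3 = 1)
    (ht : t ∈ T) (ht1 : t ≠ 1) (hct : Commute c t) : c ∈ centralizer (T : Set M) := by
  rw [mem_centralizer_iff]
  intro a ha
  set F := (zpowers t).subgroupOf T with hF
  by_cases haF : a ∈ zpowers t
  · obtain ⟨i, rfl⟩ := haF
    exact ((hct.zpow_right i).eq).symm
  have hle : zpowers t ≤ T := zpowers_le.2 ht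
  have hmul := F.card_mul_index
  rw [hT4, Nat.card_congr (subgroupOfEquivOfLe hle).toEquiv] at hmul
  have h1 : 1 < Nat.card (zpowers t) := (one_lt_card_iff_ne_bot _).2 (zpowers_ne_bot.2 ht1)
  have hidx : F.index = 2 := by
    have hne : F.index ≠ 1 := by
      intro h
      have h2 : (⟨a, ha⟩ : T) ∈ F := by rw [index_eq_one.1 h]; exact mem_top _
      exact haF h2
    have hd : F.index ∣ 4 := Dvd.intro_left _ hmul
    obtain ⟨j, hj, hji⟩ := (Nat.dvd_prime_pow Nat.prime_two).1 (show F.index ∣ 2 ^ 2 from hd)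
    interval_cases j
    · exact absurd hji hne
    · simpa using hji
    · exfalso; rw [hji] at hmul; omega
  have hb : c * a * c⁻¹ ∈ T := hT.conj_mem a ha c
  have hbF : c * a * c⁻¹ ∉ zpowers t := by
    rintro ⟨i, hi⟩
    have h2 : c * a * c⁻¹ = c * t ^ i * c⁻¹ := by
      rw [(hct.zpow_right i).eq, mul_inv_cancel_right]; exact hi.symm
    exact haF ⟨i, (mul_left_cancel (mul_right_cancel h2)).symm⟩
  have hf : a⁻¹ * (c * a * c⁻¹) ∈ zpowers t := by
    have h2 : (⟨a, ha⟩ : T)⁻¹ * ⟨c * a * c⁻¹, hb⟩ ∈ F := by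
      rw [mul_mem_iff_of_index_two hidx, inv_mem_iff]
      exact iff_of_false haF hbF
    exact h2
  obtain ⟨i, hi⟩ := hf
  simp only at hi
  set f := t ^ i with hf'
  have hcf : Commute c f := hct.zpow_right i
  have hstep : c * a * c⁻¹ = a * f := by rw [hi, mul_inv_cancel_left]
  have hfix : c * f * c⁻¹ = f := by rw [hcf.eq, mul_inv_cancel_right]
  have hf3 : f ^ 3 = 1 := by
    have h2 : c ^ 3 * a * (c ^ 3)⁻¹ = a * f ^ 3 := by
      let cc : M ≃* M := MulAut.conj c
      have hca : cc a = a * f := hstep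
      have hcf' : cc f = f := hfix
      have h3 : cc (cc (cc a)) = a * f ^ 3 := by
        rw [hca, map_mul, hca, hcf', map_mul, map_mul, hca, hcf', pow_succ, pow_two]
        simp [mul_assoc]
      rw [← h3]
      show c ^ 3 * a * (c ^ 3)⁻¹ = c * (c * (c * a * c⁻¹) * c⁻¹) * c⁻¹
      rw [show c ^ 3 = c * c * c by rw [pow_succ, pow_two]]
      simp only [mul_inv_rev, mul_assoc]
    rw [hc, one_mul, inv_one, mul_one] at h2
    exact mul_left_cancel (h2.symm.trans (mul_one a).symm)
  have hfT : f ∈ T := hle ⟨i, rfl⟩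
  have hf4 : f ^ 4 = 1 := by
    have := pow_card_eq_one' (x := (⟨f, hfT⟩ : T))
    rw [hT4] at this
    exact congrArg Subtype.val this
  have hf1 : f = 1 := by rwa [pow_succ, hf3, one_mul] at hf4
  rw [hf1, mul_one, mul_inv_eq_iff_eq_mul] at hstep
  exact hstep.symm

/-- A group of order `24` with a self-centralizing normal subgroup of order four is `S₄`. -/
theorem perm_four (hcard : Nat.card M = 24) (T : Subgroup M) (hT : T.Normal) (hT4 : Nat.card T = 4)
    (hC : centralizer (T : Set M) ≤ T) : Nonempty (M ≃* Equiv.Perm (Fin 4)) := by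
  haveI : Fact (Nat.Prime 3) := ⟨by norm_num⟩
  have hcardP : ∀ R : Sylow 3 M, Nat.card (R : Subgroup M) = 3 := by
    intro R
    obtain ⟨k, hk⟩ := IsPGroup.iff_card.1 R.isPGroup'
    have h1 := (R : Subgroup M).card_mul_index
    have h2 := R.not_dvd_index
    rw [hcard, hk] at h1
    have hk2 : 3 ^ k ≤ 24 := Nat.le_of_dvd (by norm_num) (Dvd.intro _ h1)
    have hk3 : k < 3 := (Nat.pow_lt_pow_iff_right (a := 3) (by norm_num)).1 (lt_of_le_of_lt hk2 (by norm_num))
    interval_cases k
    · simp only [pow_zero, one_mul] at h1; rw [h1] at h2; norm_num at h2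
    · simpa using hk
    · omega
  have hdisj : ∀ R : Sylow 3 M, T ⊓ normalizer ((R : Subgroup M) : Set M) = ⊥ := by
    intro R
    rw [eq_bot_iff]
    intro t ht
    obtain ⟨htT, htN⟩ := mem_inf.1 ht
    rw [mem_bot]
    by_contra ht1
    have hd : Disjoint T (R : Subgroup M) := disjoint_of_coprime_natCard (by rw [hT4, hcardP R]; norm_num)
    have hle : (R : Subgroup M) ≤ T := fun c hc => by
      have hc3 : c ^ 3 = 1 := by
        have := pow_card_eq_one' (x := (⟨c, hc⟩ : (R : Subgroup M)))
        rw [hcardP R] at this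
        exact congrArg Subtype.val this
      have hmem : t * c * t⁻¹ * c⁻¹ ∈ T ⊓ (R : Subgroup M) := by
        refine mem_inf.2 ⟨?_, mul_mem ((mem_normalizer_iff.1 htN c).1 hc) (inv_mem hc)⟩
        rw [show t * c * t⁻¹ * c⁻¹ = t * (c * t⁻¹ * c⁻¹) by group]
        exact mul_mem htT (hT.conj_mem _ (inv_mem htT) c)
      rw [hd.eq_bot, mem_bot] at hmem
      have hct : Commute c t := (commutatorElement_eq_one_iff_commute.1 (by
        rw [commutatorElement_def]; exact hmem)).symm
      exact hC (three_fix hT hT4 hc3 htT ht1 hct)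
    have h3 := hd.eq_bot
    rw [inf_eq_right.2 hle] at h3
    have := hcardP R
    rw [h3, Subgroup.card_bot] at this
    norm_num at this
  have hn3 : Nat.card (Sylow 3 M) = 4 := by
    obtain ⟨R⟩ : Nonempty (Sylow 3 M) := inferInstance
    set N := normalizer ((R : Subgroup M) : Set M) with hN
    have h1 := R.card_eq_index_normalizer
    have h2 := card_sylow_modEq_one 3 M
    have h3 := N.card_mul_index
    have hnorm : N ≤ normalizer (T : Set M) := by rw [normalizer_eq_top]; exact le_top
    have h4 := PLocal.card_sup_mul_card_inf hnorm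
    rw [inf_comm N T, sup_comm N T, hdisj R, Subgroup.card_bot, mul_one, hT4] at h4
    have h5 := (card_le_card_group (T ⊔ N)).trans hcard.le
    have h6 : (R : Subgroup M).index = 8 := by
      have := (R : Subgroup M).card_mul_index
      rw [hcard, hcardP R] at this; omega
    have h7 := Nat.le_of_dvd (by norm_num) (h6 ▸ R.card_dvd_index)
    rw [hcard] at h3
    have hne : 0 < Nat.card N := Nat.card_pos
    have h8 : 4 ≤ N.index := by nlinarith
    rw [h1] at h2 h7 ⊢
    have h9 := h6 ▸ R.card_dvd_index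
    rw [h1] at h9
    have hN8 : N.index ≤ 8 := h7
    generalize N.index = j at *
    interval_cases j <;> norm_num [Nat.ModEq] at * <;> omega
  let φ := MulAction.toPermHom M (Sylow 3 M)
  have hinj : Function.Injective φ := by
    rw [← MonoidHom.ker_eq_bot_iff]
    set N := φ.ker
    obtain ⟨R⟩ : Nonempty (Sylow 3 M) := inferInstance
    have hNN : N ≤ normalizer ((R : Subgroup M) : Set M) := fun g hg => by
      have h1 : φ g = 1 := hg
      have h2 : g • R = R := congrFun (congrArg DFunLike.coe h1) R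
      exact Sylow.smul_eq_iff_mem_normalizer.1 h2
    have hd : Disjoint N T := by
      rw [disjoint_iff, eq_bot_iff]
      exact fun g hg => (hdisj R).le ⟨hg.2, hNN hg.1⟩
    have hle : N ≤ T := fun g hg => hC (mem_centralizer_iff.2 fun t ht =>
      ((commute_of_normal_of_disjoint N T inferInstance hT hd g t hg ht).symm).eq)
    exact disjoint_self.1 (hd.mono_right hle)
  let e : Sylow 3 M ≃ Fin 4 := Finite.equivFinOfCardEq hn3
  haveI : Finite (Sylow 3 M) := Finite.of_equiv _ e.symm
  have hc2 : Nat.card M = Nat.card (Equiv.Perm (Sylow 3 M)) := by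
    rw [Nat.card_congr e.permCongr, hcard, Nat.card_perm, Nat.card_fin]; rfl
  exact ⟨(MulEquiv.ofBijective φ ((Nat.bijective_iff_injective_and_card φ).2 ⟨hinj, hc2⟩)).trans e.permCongrHom⟩

/-- The centralizer of an abelian normal subgroup of index six, moved by elements of order two and three. -/
theorem centralizer_le_of_six {W : Subgroup M} (hW : W.Normal) (hab : W ≤ centralizer (W : Set M))
    (hcard : Nat.card M = 6 * Nat.card W) {c u : M} (hc : c ^ 3 = 1) (hcW : c ∉ centralizer (W : Set M))
    (hu : u ^ 2 = 1) (huW : u ∉ centralizer (W : Set M)) : centralizer (W : Set M) ≤ W := by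
  set C := centralizer (W : Set M) with hCdef
  haveI : C.Normal := inferInstance
  have hord : ∀ (q : ℕ), q.Prime → ∀ g : M, g ^ q = 1 → g ∉ C → q ∣ C.index := by
    intro q hq g hg hgC
    have h1 : orderOf (QuotientGroup.mk g : M ⧸ C) = q := by
      rcases hq.eq_one_or_self_of_dvd _ (orderOf_dvd_of_pow_eq_one
        (show (QuotientGroup.mk g : M ⧸ C) ^ q = 1 by rw [← QuotientGroup.mk_pow, hg]; rfl)) with h | h
      · exact absurd ((QuotientGroup.eq_one_iff g).1 (orderOf_eq_one_iff.1 h)) hgC
      · exact h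
    rw [index_eq_card, ← h1]
    exact orderOf_dvd_natCard _
  have h6 : 6 ∣ C.index := Nat.Coprime.mul_dvd_of_dvd_of_dvd (m := 2) (n := 3) (by norm_num)
    (hord 2 Nat.prime_two u hu huW) (hord 3 Nat.prime_three c hc hcW)
  have h := C.card_mul_index
  have hpos : 0 < C.index := Nat.pos_of_ne_zero index_ne_zero_of_finite
  have hle : 6 ≤ C.index := Nat.le_of_dvd hpos h6
  rw [hcard] at h
  exact (eq_of_le_of_card_ge hab (by nlinarith)).ge

/-- A normal subgroup of order four with commuting elements, extended by a dihedral group of order six. -/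
theorem exists_s4 (T : Subgroup M) (hT : T.Normal) (hT4 : Nat.card T = 4)
    (hab : T ≤ centralizer (T : Set M)) {c u : M} (hc : c ^ 3 = 1) (hu : u ^ 2 = 1)
    (hcu : u * c * u = c⁻¹) (hcT : c ∉ centralizer (T : Set M)) (huT : u ∉ centralizer (T : Set M)) :
    Nonempty (↥(T ⊔ zpowers c ⊔ zpowers u) ≃* Equiv.Perm (Fin 4)) ∧
      Nat.card ↥(T ⊔ zpowers c ⊔ zpowers u) = 24 ∧
      (T ⊔ zpowers c ⊔ zpowers u) ⊓ centralizer (T : Set M) ≤ T := by
  haveI : Fact (Nat.Prime 3) := ⟨by norm_num⟩
  haveI : Fact (Nat.Prime 2) := ⟨by norm_num⟩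
  set B := T ⊔ zpowers c with hB
  set L := B ⊔ zpowers u with hL
  have hc1 : c ≠ 1 := fun h => hcT (h ▸ one_mem _)
  have hu1 : u ≠ 1 := fun h => huT (h ▸ one_mem _)
  have hoc : Nat.card (zpowers c) = 3 := by rw [Nat.card_zpowers]; exact orderOf_eq_prime hc hc1
  have hou : Nat.card (zpowers u) = 2 := by rw [Nat.card_zpowers]; exact orderOf_eq_prime hu hu1
  have hBcard : Nat.card B = 12 := by
    have h := PLocal.card_sup_mul_card_inf (A := zpowers c) (B := T) (by rw [normalizer_eq_top]; exact le_top)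
    rw [sup_comm (zpowers c) T, ← hB, inf_comm (zpowers c) T, (disjoint_of_coprime_natCard (by rw [hT4, hoc]; norm_num) : Disjoint T (zpowers c)).eq_bot,
      Subgroup.card_bot, mul_one, hT4, hoc] at h
    exact h
  have huB : u ∉ B := by
    intro huB
    set U := T ⊔ zpowers u
    have hUB : U ≤ B := sup_le le_sup_left (zpowers_le.2 huB)
    have h1 := PLocal.card_sup_mul_card_inf (A := zpowers u) (B := T) (by rw [normalizer_eq_top]; exact le_top)
    rw [sup_comm (zpowers u) T, hT4, hou] at h1
    have h2 : Nat.card U ∣ 12 := hBcard ▸ card_dvd_of_le hUB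
    have h3 : Nat.card U ∣ 8 := Dvd.intro _ h1
    have h4 := Nat.le_of_dvd (by norm_num) (show Nat.card U ∣ 4 from Nat.dvd_gcd h2 h3)
    have hUT : T = U := eq_of_le_of_card_ge le_sup_left (by rw [hT4]; exact h4)
    exact huT (hab (hUT ▸ mem_sup_right (mem_zpowers u)))
  have huinv : u⁻¹ = u := inv_eq_of_mul_eq_one_right (by rw [← pow_two, hu])
  have hnorm : zpowers u ≤ normalizer (B : Set M) := by
    rw [zpowers_le, mem_normalizer_iff]
    have hle : B.map (MulAut.conj u).toMonoidHom ≤ B := by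
      rw [hB, Subgroup.map_sup, MonoidHom.map_zpowers]
      refine sup_le_sup (map_le_iff_le_comap.2 fun t ht => hT.conj_mem t ht u) (zpowers_le.2 ⟨-1, ?_⟩)
      show c ^ (-1 : ℤ) = u * c * u⁻¹
      rw [huinv, hcu, zpow_neg, zpow_one]
    have key : ∀ g, g ∈ B → u * g * u⁻¹ ∈ B := fun g hg => hle ⟨g, hg, rfl⟩
    refine fun g => ⟨key g, fun hg => ?_⟩
    have h2 := key _ hg
    rw [huinv] at h2
    rwa [show u * (u * g * u) * u = g by rw [← mul_assoc, ← mul_assoc, ← pow_two, hu, one_mul, mul_assoc, ← pow_two, hu, mul_one]] at h2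
  have hLcard : Nat.card L = 24 := by
    have h := PLocal.card_sup_mul_card_inf hnorm
    have hd : B ⊓ zpowers u = ⊥ := by
      rw [eq_bot_iff]
      intro g hg
      obtain ⟨hgB, hgu⟩ := mem_inf.1 hg
      obtain ⟨i, rfl⟩ := mem_zpowers_iff.1 hgu
      rw [mem_bot]
      rcases Int.even_or_odd i with ⟨j, rfl⟩ | ⟨j, rfl⟩
      · rw [← two_mul, zpow_mul, show u ^ (2 : ℤ) = 1 by exact_mod_cast hu, one_zpow]
      · refine absurd ?_ huB
        rwa [zpow_add, zpow_mul, show u ^ (2 : ℤ) = 1 by exact_mod_cast hu, one_zpow, one_mul, zpow_one] at hgB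
    rw [sup_comm (zpowers u) B, ← hL, inf_comm (zpowers u) B, hd, Subgroup.card_bot, mul_one, hBcard, hou] at h
    exact h
  have hTL : T ≤ L := le_sup_left.trans le_sup_left
  have hcL : c ∈ L := mem_sup_left (mem_sup_right (mem_zpowers c))
  have huL : u ∈ L := mem_sup_right (mem_zpowers u)
  have hmem : ∀ g : L, g ∈ centralizer ((T.subgroupOf L : Subgroup L) : Set L) → (g : M) ∈ centralizer (T : Set M) := by
    intro g hg
    rw [mem_centralizer_iff]
    intro t ht
    exact congrArg Subtype.val (mem_centralizer_iff.1 hg ⟨t, hTL ht⟩ ht)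
  have hT4' : Nat.card (T.subgroupOf L) = 4 := by rw [Nat.card_congr (subgroupOfEquivOfLe hTL).toEquiv, hT4]
  have hC : centralizer ((T.subgroupOf L : Subgroup L) : Set L) ≤ T.subgroupOf L := by
    refine centralizer_le_of_six (hT.subgroupOf L) ?_ (by rw [hLcard, hT4']) (c := ⟨c, hcL⟩) (u := ⟨u, huL⟩)
      (Subtype.ext hc) (fun h => hcT (hmem _ h)) (Subtype.ext hu) (fun h => huT (hmem _ h))
    intro t ht
    exact mem_centralizer_iff.2 fun s hs => Subtype.ext (mem_centralizer_iff.1 (hab ht) _ hs)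
  refine ⟨perm_four hLcard _ (hT.subgroupOf L) hT4' hC, hLcard, fun g hg => ?_⟩
  exact hC (x := ⟨g, hg.1⟩) (mem_centralizer_iff.2 fun s hs => Subtype.ext (mem_centralizer_iff.1 hg.2 _ hs))

/-- Splitting off a central involution. -/
theorem prod_two {L : Subgroup M} {z : M} (hz : z ∈ Subgroup.center M) (hz2 : z ^ 2 = 1) (hzL : z ∉ L)
    (htop : L ⊔ zpowers z = ⊤) : Nonempty (M ≃* L × Multiplicative (ZMod 2)) := by
  haveI : Fact (Nat.Prime 2) := ⟨by norm_num⟩
  have hoz : orderOf z = 2 := orderOf_eq_prime hz2 fun h => hzL (h ▸ one_mem L)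
  have hcom : ∀ (a : L) (b : zpowers z), Commute (L.subtype a) ((zpowers z).subtype b) := by
    rintro a ⟨b, i, rfl⟩
    exact Commute.zpow_right (show Commute (a : M) z from mem_center_iff.1 hz a) i
  let f : L × zpowers z →* M := MonoidHom.noncommCoprod L.subtype (zpowers z).subtype hcom
  have hd : L ⊓ zpowers z = ⊥ := by
    rw [eq_bot_iff]
    intro g hg
    obtain ⟨hgL, hgz⟩ := mem_inf.1 hg
    obtain ⟨i, rfl⟩ := mem_zpowers_iff.1 hgz
    rw [mem_bot]
    rcases Int.even_or_odd i with ⟨j, rfl⟩ | ⟨j, rfl⟩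
    · rw [← two_mul, zpow_mul, show z ^ (2 : ℤ) = 1 by exact_mod_cast hz2, one_zpow]
    · refine absurd ?_ hzL
      rwa [zpow_add, zpow_mul, show z ^ (2 : ℤ) = 1 by exact_mod_cast hz2, one_zpow, one_mul, zpow_one] at hgL
  have hinj : Function.Injective f := by
    rw [MonoidHom.noncommCoprod_injective]
    refine ⟨L.subtype_injective, (zpowers z).subtype_injective, ?_⟩
    rw [Subgroup.range_subtype, Subgroup.range_subtype, disjoint_iff, hd]
  have hsurj : Function.Surjective f := by
    rw [← MonoidHom.range_eq_top, MonoidHom.noncommCoprod_range, Subgroup.range_subtype, Subgroup.range_subtype, htop]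
  have e2 : zpowers z ≃* Multiplicative (ZMod 2) := mulEquivOfPrimeCardEq (p := 2)
    (by rw [Nat.card_zpowers, hoz]) (by rw [Nat.card_congr Multiplicative.toAdd, Nat.card_zmod])
  exact ⟨(MulEquiv.ofBijective f ⟨hinj, hsurj⟩).symm.trans (MulEquiv.prodCongr (MulEquiv.refl L) e2)⟩

end Cfsg.Agent.FGS4.Dihedral
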